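import Cfsg.Agent.H260.GN11
import Cfsg.Agent.H264.CD

/-!
# Glauberman-Niles, part 12: the Chermak-Delgado lattice
-/

set_option autoImplicit false
set_option linter.unusedSectionVars false
set_option linter.unusedVariables false
set_option linter.style.haveILetI false

namespace Cfsg.Agent.H260.GN

open Subgroup Push
open scoped commutatorElement

section comap

variable {P G : Type*} [Group P] [Group G] {β : P →* G} (hβ : Function.Injective β)
include hβ

theorem map_comap_eq' {X : Subgroup G} (hX : X ≤ β.range) : (X.comap β).map β = X := by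
  rw [Subgroup.map_comap_eq, inf_eq_right.mpr hX]

theorem comap_iSup' {κ : Sort*} {X : κ → Subgroup G} (hX : ∀ k, X k ≤ β.range) :
    (⨆ k, X k).comap β = ⨆ k, (X k).comap β := by
  apply Subgroup.map_injective hβ
  rw [map_comap_eq' hβ (iSup_le hX), Subgroup.map_iSup]
  congr 1
  ext1 k
  rw [map_comap_eq' hβ (hX k)]

theorem card_comap' {X : Subgroup G} (hX : X ≤ β.range) : Nat.card (X.comap β) = Nat.card X := by
  rw [← card_map' β hβ, map_comap_eq' hβ hX]

theorem centralizer_comap' {X : Subgroup G} (hX : X ≤ β.range) :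
    centralizer ((X.comap β : Subgroup P) : Set P) = (β.range ⊓ centralizer (X : Set G)).comap β := by
  ext x
  rw [mem_centralizer_iff, mem_comap]
  constructor
  · intro h
    refine ⟨⟨x, rfl⟩, mem_centralizer_iff.mpr ?_⟩
    intro y hy
    obtain ⟨z, rfl⟩ := hX hy
    rw [← map_mul, ← map_mul, h z hy]
  · intro h z hz
    apply hβ
    rw [map_mul, map_mul]
    exact mem_centralizer_iff.mp h.2 _ hz

end comap

section fam

variable {G : Type*} [Group G] {ι : Type*} {P : Type*} [Group P] [Finite P] {β : P →* G}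
  (hβ : Function.Injective β)

/-- `X ≤ S` lies in the Chermak-Delgado lattice of `S`. -/
def CDb (β : P →* G) (X : Subgroup G) : Prop := X ≤ β.range ∧ Cfsg.IsCentralizerLarge (X.comap β)

include hβ

theorem CDb.of_card {X : Subgroup G} (hX : X ≤ β.range)
    (h : Cfsg.maxCentralizerProduct P ≤ Nat.card X * Nat.card (β.range ⊓ centralizer (X : Set G) : Subgroup G)) :
    CDb β X := by
  refine ⟨hX, H264.CD.cl_of_ge ?_⟩
  rwa [card_comap' hβ hX, centralizer_comap' hβ hX, card_comap' hβ inf_le_left]

theorem CDb.card {X : Subgroup G} (h : CDb β X) :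
    Nat.card X * Nat.card (β.range ⊓ centralizer (X : Set G) : Subgroup G) = Cfsg.maxCentralizerProduct P := by
  have := h.2
  unfold Cfsg.IsCentralizerLarge at this
  rwa [card_comap' hβ h.1, centralizer_comap' hβ h.1, card_comap' hβ inf_le_left] at this

theorem CDb.iSup {κ : Sort*} [hκ : Nonempty κ] {X : κ → Subgroup G} (h : ∀ k, CDb β (X k)) :
    CDb β (⨆ k, X k) := by
  refine ⟨iSup_le fun k => (h k).1, ?_⟩
  rw [comap_iSup' hβ fun k => (h k).1]
  apply H264.CD.CL.sSup_mem
  · obtain ⟨k⟩ := hκ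
    exact ⟨_, k, rfl⟩
  · rintro _ ⟨k, rfl⟩
    exact (h k).2

variable {p : ℕ} [hp : Fact p.Prime] {S : Subgroup G}

theorem Loc.cdV {q : ℕ} {L Q V C M : Subgroup G} (c : Loc p q β.range L Q V C M)
    (hCL : Cfsg.IsCentralizerLarge (⊤ : Subgroup P)) : CDb β V := by
  apply CDb.of_card hβ c.VS
  rw [c.cV, c.cardV]
  have h1 : CDb β β.range := by
    refine ⟨le_rfl, ?_⟩
    have : β.range.comap β = ⊤ := by
      rw [eq_top_iff]
      exact fun x _ => ⟨x, rfl⟩
    rwa [this]
  have h2 := h1.card hβ
  rw [← h2]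
  have h3 : Nat.card (β.range ⊓ centralizer (β.range : Set G) : Subgroup G) = Nat.card (cen β.range) := rfl
  rw [h3, c.cardS]
  exact le_of_eq (by ring)

theorem Loc.cdcj {q : ℕ} {L Q V C M : Subgroup G} (c : Loc p q β.range L Q V C M) {X : Subgroup G}
    (hX : CDb β X) (hVX : V ≤ X) (hXQ : X ≤ Q) {l : G} (hl : l ∈ L) : CDb β (cj l X) := by
  have h1 : cj l X ≤ Q := by
    have := cj_mono (g := l) hXQ
    rwa [c.Qn l hl] at this
  apply CDb.of_card hβ (h1.trans c.QS)
  rw [← hX.card hβ, card_cj]
  apply Nat.mul_le_mul le_rfl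
  rw [← card_cj l (β.range ⊓ centralizer (X : Set G))]
  haveI := c.finS
  haveI : Finite (β.range ⊓ centralizer (cj l X : Set G) : Subgroup G) := fin_le inf_le_left
  apply card_mono'
  have h2 : β.range ⊓ centralizer (X : Set G) ≤ Q := by
    rw [← c.cV]
    exact inf_le_inf le_rfl (centralizer_le (SetLike.coe_subset_coe.mpr hVX))
  have h3 : cj l (β.range ⊓ centralizer (X : Set G)) ≤ Q := by
    have := cj_mono (g := l) h2
    rwa [c.Qn l hl] at this
  apply le_inf (h3.trans c.QS)
  rw [cj_inf, cj_centralizer]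
  exact inf_le_right

end fam

section words

variable {G : Type*} [Group G] {ι : Type*} {P : Type*} [Group P] [Finite P] {β : P →* G}
  (hβ : Function.Injective β) {p : ℕ} [hp : Fact p.Prime] {q : ι → ℕ} {L Q V C M : ι → Subgroup G}

/-- `⟨(V i)^w⟩` for words `w` of length `n`. -/
def En (L V : ι → Subgroup G) (n : ℕ) : Subgroup G := ⨆ w : Wd L n, ⨆ i, cj (w : G) (V i)

theorem le_En {n : ℕ} {w : G} (hw : w ∈ Wd L n) (i : ι) : cj w (V i) ≤ En L V n :=
  (le_iSup (fun i => cj w (V i)) i).trans (le_iSup (fun w : Wd L n => ⨆ i, cj (w : G) (V i)) ⟨w, hw⟩)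

theorem En_le {n : ℕ} {X : Subgroup G} (h : ∀ w ∈ Wd L n, ∀ i, cj w (V i) ≤ X) : En L V n ≤ X :=
  iSup_le fun w => iSup_le fun i => h w w.2 i

variable (loc : ∀ i, Loc p (q i) β.range (L i) (Q i) (V i) (C i) (M i)) (hall : ∀ n, CommN L V n)
include loc hall

theorem cjw_le {n : ℕ} {w : G} (hw : w ∈ Wd L n) (i : ι) : cj w (V i) ≤ β.range := by
  have h := inS loc (hall n) (x := 1) (y := w) (by
    have : (1 : G)⁻¹ * w = w := by group
    rw [this]
    exact wd_le i (Nat.le_succ n) hw) i
  rwa [cj_one] at h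

theorem cm_words {n m : ℕ} {w w' : G} (hw : w ∈ Wd L n) (hw' : w' ∈ Wd L m) (i j : ι) :
    Cm (cj w (V i)) (cj w' (V j)) :=
  (hall (n + m)).cm (wd_mul (wd_inv hw) hw') i j

theorem En_le_S (n : ℕ) : En L V n ≤ β.range := En_le fun w hw i => cjw_le loc hall hw i

theorem En_cm (n m : ℕ) : Cm (En L V n) (En L V m) :=
  Cm.iSup_left fun w => Cm.iSup_left fun i => Cm.iSup_right fun w' => Cm.iSup_right fun j =>
    cm_words loc hall w.2 w'.2 i j

include hβ in
theorem cdEn [hι : Nonempty ι] (hCL : Cfsg.IsCentralizerLarge (⊤ : Subgroup P)) (n : ℕ) :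
    CDb β (En L V n) := by
  induction n with
  | zero =>
    have h1 : En L V 0 = ⨆ i, V i := by
      apply le_antisymm
      · apply En_le
        intro w hw i
        rw [wd_zero] at hw
        subst hw
        rw [cj_one]
        exact le_iSup V i
      · apply iSup_le
        intro i
        have := le_En (V := V) (wd_zero.mpr rfl : (1 : G) ∈ Wd L 0) i
        rwa [cj_one] at this
    rw [h1]
    exact CDb.iSup hβ fun i => (loc i).cdV hβ hCL
  | succ n ih =>
    have h1 : En L V (n + 1) = ⨆ j, ⨆ l : L j, cj (l : G) (En L V n) := by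
      apply le_antisymm
      · apply En_le
        intro w hw i
        obtain ⟨j, l, hl, w', hw', rfl⟩ := wd_succ.mp hw
        rw [← cj_mul]
        exact (cj_mono (le_En hw' i)).trans ((le_iSup (fun l : L j => cj (l : G) (En L V n)) ⟨l, hl⟩).trans
          (le_iSup (fun j => ⨆ l : L j, cj (l : G) (En L V n)) j))
      · apply iSup_le
        intro j
        apply iSup_le
        rintro ⟨l, hl⟩
        show cj l (En L V n) ≤ _
        rw [cj_le_iff]
        apply En_le
        intro w hw i
        rw [le_cj_iff, inv_inv, cj_mul]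
        exact le_En (wd_cons hl hw) i
    rw [h1]
    apply CDb.iSup hβ
    intro j
    apply CDb.iSup hβ
    rintro ⟨l, hl⟩
    have hVE : V j ≤ En L V n := by
      have := le_En (V := V) (wd_one j n : (1 : G) ∈ Wd L n) j
      rwa [cj_one] at this
    apply (loc j).cdcj hβ ih hVE _ hl
    apply (loc j).le_Q (En_le_S loc hall n)
    exact (En_cm loc hall n n).mono hVE le_rfl

/-- **The abelian subgroup.** -/
theorem exists_E [hι : Nonempty ι] (hβ : Function.Injective β)
    (hCL : Cfsg.IsCentralizerLarge (⊤ : Subgroup P)) :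
    ∃ E : Subgroup P, Cfsg.IsCentralizerLarge E ∧ E ≤ centralizer (E : Set P) ∧
      (∀ i, V i ≤ E.map β) ∧ (∀ i, ∀ l ∈ L i, cj l (E.map β) = E.map β) ∧
      ∀ F : Subgroup P, (∀ i, V i ≤ F.map β) → (∀ i, ∀ l ∈ L i, cj l (F.map β) = F.map β) → E ≤ F := by
  set E' : Subgroup G := ⨆ n, En L V n with hE'
  have hS : E' ≤ β.range := iSup_le fun n => En_le_S loc hall n
  have hcm : Cm E' E' := Cm.iSup_left fun n => Cm.iSup_right fun m => En_cm loc hall n m
  have hcd : CDb β E' := CDb.iSup hβ fun n => cdEn hβ loc hall hCL n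
  have hmap : (E'.comap β).map β = E' := map_comap_eq' hβ hS
  have hle : ∀ {n : ℕ} {w : G}, w ∈ Wd L n → ∀ i, cj w (V i) ≤ E' := fun {n w} hw i =>
    (le_En hw i).trans (le_iSup (fun n => En L V n) n)
  refine ⟨E'.comap β, hcd.2, ?_, ?_, ?_, ?_⟩
  · intro x hx
    rw [mem_centralizer_iff]
    intro y hy
    apply hβ
    rw [map_mul, map_mul]
    exact hcm _ hy _ hx
  · intro i
    rw [hmap]
    have := hle (wd_zero.mpr rfl : (1 : G) ∈ Wd L 0) i
    rwa [cj_one] at this
  · intro i l hl
    rw [hmap]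
    have key : ∀ l ∈ L i, cj l E' ≤ E' := by
      intro l hl
      rw [cj_le_iff]
      apply iSup_le
      intro n
      apply En_le
      intro w hw j
      rw [le_cj_iff, inv_inv, cj_mul]
      exact hle (wd_cons hl hw) j
    apply le_antisymm (key l hl)
    rw [le_cj_iff]
    exact key _ ((L i).inv_mem hl)
  · intro F h1 h2
    have h3 : E' ≤ F.map β := by
      apply iSup_le
      intro n
      apply En_le
      induction n with
      | zero =>
        intro w hw i
        rw [wd_zero] at hw
        subst hw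
        rw [cj_one]
        exact h1 i
      | succ n ih =>
        intro w hw i
        obtain ⟨j, l, hl, w', hw', rfl⟩ := wd_succ.mp hw
        rw [← cj_mul, ← h2 j l hl]
        exact cj_mono (ih w' hw' i)
    intro x hx
    exact (map_mem_iff β hβ).mp (h3 hx)

end words

end Cfsg.Agent.H260.GN
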