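import Cfsg.Agent.H260.GN12
import Cfsg.Agent.H260.ClEquiv

/-!
# Glauberman-Niles, part 13: the ambient pushout and the second characteristic subgroup
-/

set_option autoImplicit false
set_option linter.unusedSectionVars false
set_option linter.unusedVariables false
set_option linter.style.haveILetI false

namespace Cfsg.Agent.H260.GN

open Subgroup Push
open scoped commutatorElement

universe u

section core

variable {G : Type*} [Group G] [Finite G] {p q : ℕ} [hp : Fact p.Prime] {S T M : Subgroup G}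

theorem loc_of_core (c : Core p q S T M) (hZ : ¬ (cen S).Normal) {A : Subgroup G} (hA : LargeAb S A)
    (hAT : ¬ A ≤ T) (hel : ∀ z ∈ cen S, z ^ p = 1) : Loc p q S ⊤ T (cen T) (center G) M := by
  have N := c.nat hZ hA hAT
  have hTn := c.normT
  refine
    { fin := inferInstance
      SL := le_top
      pg := c.pgS
      idx := ?_
      QS := c.le
      Qn := fun g _ => cj_normal g T
      Vd := rfl
      cV := N.centX
      Cd := ?_
      SM := c.leM
      ML := le_top
      ex := ?_
      gen := fun g _ hg => c.gen g hg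
      ti := fun g _ hg => c.ti g hg
      quad := N.quad
      cmc := N.cmc
      cardS := c.card
      cardV := N.cardX
      cardZ := N.cardZ
      big := ⟨A, hA, hAT⟩
      el := hel }
  · obtain ⟨P, hP⟩ := c.syl
    rw [← hP, relIndex_top_right]
    exact P.not_dvd_index
  · apply le_antisymm
    · apply le_inf c.center_le
      intro x hx
      rw [mem_centralizer_iff]
      intro y _
      exact mem_center_iff.mp hx y
    · intro x hx
      rw [mem_center_iff]
      intro g
      exact mem_centralizer_iff.mp hx.2 g (mem_top g)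
  · obtain ⟨g, hg⟩ := c.exists_notMem_M
    exact ⟨g, mem_top g, hg⟩

end core

/-! ## invariance of the Thompson subgroup -/

section thompson

variable {P P' : Type*} [Group P] [Group P']

theorem comm_iff_all (B : Subgroup P) : IsMulCommutative B ↔ ∀ x ∈ B, ∀ y ∈ B, x * y = y * x := by
  constructor
  · intro hB x hx y hy
    have := hB.is_comm.comm (⟨x, hx⟩ : B) ⟨y, hy⟩
    exact congrArg Subtype.val this
  · intro hB
    exact ⟨⟨fun a b => Subtype.ext (hB a a.2 b b.2)⟩⟩

theorem comm_map_iff (e : P ≃* P') (A : Subgroup P) :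
    IsMulCommutative (A.map e.toMonoidHom) ↔ IsMulCommutative A := by
  rw [comm_iff_all, comm_iff_all]
  constructor
  · intro h1 x hx y hy
    have := h1 _ ⟨x, hx, rfl⟩ _ ⟨y, hy, rfl⟩
    apply e.injective
    rw [map_mul, map_mul]
    exact this
  · rintro h1 _ ⟨x, hx, rfl⟩ _ ⟨y, hy, rfl⟩
    rw [← map_mul, ← map_mul, h1 x hx y hy]

theorem maxAb_map (e : P ≃* P') {A : Subgroup P} (hA : A ∈ Cfsg.maxAbelianSubgroups P) :
    A.map e.toMonoidHom ∈ Cfsg.maxAbelianSubgroups P' := by
  refine ⟨(comm_map_iff e A).mpr hA.1, ?_⟩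
  intro B hB
  rw [ClEquiv.card_map]
  have h1 := hA.2 (B.map e.symm.toMonoidHom) ((comm_map_iff e.symm B).mpr hB)
  rwa [ClEquiv.card_map] at h1

theorem thompson_map_le (e : P ≃* P') :
    (Cfsg.thompsonSubgroupA P).map e.toMonoidHom ≤ Cfsg.thompsonSubgroupA P' := by
  unfold Cfsg.thompsonSubgroupA
  rw [Subgroup.map_le_iff_le_comap]
  apply sSup_le
  intro A hA
  rw [← Subgroup.map_le_iff_le_comap]
  exact le_sSup (maxAb_map e hA)

theorem thompson_map (e : P ≃* P') :
    (Cfsg.thompsonSubgroupA P).map e.toMonoidHom = Cfsg.thompsonSubgroupA P' := by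
  apply le_antisymm (thompson_map_le e)
  have h := Subgroup.map_mono (f := e.toMonoidHom) (thompson_map_le e.symm)
  rwa [ClEquiv.map_map_symm] at h

end thompson

/-- The configurations in which `S₁` is not normal. -/
structure Conf (p : ℕ) {P : Type u} [Group P] (S₁ : Subgroup P) : Type (u + 1) where
  G : Type u
  [grp : Group G]
  [fin : Finite G]
  P₀ : Subgroup G
  e : P ≃* P₀
  hE : Cfsg.IsPushingUpSituation p P₀
  hn : ¬ (S₁.map (P₀.subtype.comp e.toMonoidHom)).Normal

attribute [instance] Conf.grp Conf.fin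

namespace Conf

variable {p : ℕ} {P : Type u} [Group P] {S₁ : Subgroup P}

/-- the embedding. -/
def f (i : Conf p S₁) : P →* i.G := i.P₀.subtype.comp i.e.toMonoidHom

theorem f_inj (i : Conf p S₁) : Function.Injective i.f := by
  intro x y h
  exact i.e.injective (Subtype.ext h)

theorem f_range (i : Conf p S₁) : i.f.range = i.P₀ := by
  unfold f
  rw [MonoidHom.range_eq_map, ← Subgroup.map_map]
  have : (⊤ : Subgroup P).map i.e.toMonoidHom = ⊤ := by
    rw [← MonoidHom.range_eq_map, MonoidHom.range_eq_top]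
    exact i.e.surjective
  rw [this, ← MonoidHom.range_eq_map, range_subtype]

theorem map_top (i : Conf p S₁) : (⊤ : Subgroup P).map i.f = i.P₀ := by
  rw [← MonoidHom.range_eq_map, f_range]

theorem map_center (i : Conf p S₁) : (center P).map i.f = cen i.P₀ := by
  have : (center P) = cen (⊤ : Subgroup P) := by
    ext x
    rw [mem_center_iff]
    constructor
    · intro h
      exact ⟨mem_top x, mem_centralizer_iff.mpr fun y _ => h y⟩
    · intro h y
      exact mem_centralizer_iff.mp h.2 y (mem_top y)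
  rw [this, map_cen i.f i.f_inj, map_top]

theorem normal_of_le_center {G : Type*} [Group G] {H : Subgroup G} (h : H ≤ center G) : H.Normal := by
  constructor
  intro x hx g
  have h3 := Subgroup.mem_center_iff.mp (h hx) g
  rw [h3, mul_inv_cancel_right]
  exact hx

theorem loc [Finite P] [Fact p.Prime] (hS₁ : S₁ ≤ center P) (hJ : Cfsg.thompsonSubgroupA P = ⊤)
    (hZ : ∀ z ∈ center P, z ^ p = 1) (i : Conf p S₁) :
    ∃ q M, Loc p q i.P₀ ⊤ (Cfsg.pCore p i.G) (cen (Cfsg.pCore p i.G)) (center i.G) M := by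
  obtain ⟨q, M, c⟩ := exists_core i.hE
  have hZn : ¬ (cen i.P₀).Normal := by
    intro h
    apply i.hn
    apply normal_of_le_center
    refine le_trans ?_ (c.center_of_normal h)
    rw [← i.map_center]
    exact Subgroup.map_mono hS₁
  have hJ1 : Cfsg.thompsonSubgroupAOf i.P₀ = i.P₀ := by
    unfold Cfsg.thompsonSubgroupAOf
    rw [← thompson_map i.e, hJ, Subgroup.map_map]
    exact i.map_top
  have hJ2 : i.P₀ ≤ centralizer (Cfsg.centerThompsonAOf i.P₀ : Set i.G) := by
    unfold Cfsg.centerThompsonAOf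
    rw [hJ1]
    intro x hx
    rw [mem_centralizer_iff]
    intro y hy
    exact (mem_centralizer_iff.mp hy.2 x hx).symm
  obtain ⟨A, hA, hAT⟩ := exists_large_not_le c hZn hJ2
  refine ⟨q, M, loc_of_core c hZn hA hAT ?_⟩
  rw [← i.map_center]
  rintro _ ⟨z, hz, rfl⟩
  rw [← map_pow, hZ z hz, map_one]

end Conf

/-- invariance under the image of `G`. -/
theorem inv_iff_normal {G G' : Type*} [Group G] [Group G'] {ψ : G →* G'} (hψ : Function.Injective ψ)
    (F : Subgroup G) : (∀ l ∈ (⊤ : Subgroup G).map ψ, cj l (F.map ψ) = F.map ψ) ↔ F.Normal := by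
  constructor
  · intro h
    apply normal_of_cj
    intro g
    apply Subgroup.map_injective hψ
    rw [map_cj]
    exact h _ ⟨g, mem_top g, rfl⟩
  · rintro h _ ⟨g, _, rfl⟩
    rw [← map_cj, cj_normal g F]

theorem exists_S₂ {p : ℕ} [hp : Fact p.Prime] {P : Type u} [Group P] [Finite P] [Nontrivial P]
    (hP : IsPGroup p P) (S₁ : Subgroup P) (hS₁c : S₁.Characteristic) (hS₁ : S₁ ≤ s0 p ⊤ ⊓ center P)
    (hJ : Cfsg.thompsonSubgroupA P = ⊤) (hZ : ∀ z ∈ center P, z ^ p = 1)
    (hCL : Cfsg.IsCentralizerLarge (⊤ : Subgroup P)) :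
    ∃ S₂ : Subgroup P, S₂ ≠ ⊥ ∧ S₂.Characteristic ∧ Cfsg.IsCentrallyLarge S₂ ∧
      ∀ (G : Type u) [Group G] [Finite G] (P₀ : Subgroup G) (e : P ≃* P₀),
        Cfsg.IsPushingUpSituation p P₀ →
        (S₁.map (P₀.subtype.comp e.toMonoidHom)).Normal ∨ (S₂.map (P₀.subtype.comp e.toMonoidHom)).Normal := by
  have hS₁Z : S₁ ≤ center P := hS₁.trans inf_le_right
  by_cases hne : Nonempty (Conf p S₁)
  swap
  · refine ⟨⊤, top_ne_bot, inferInstance, ?_, ?_⟩
    · rw [H264.CD.isCentrallyLarge_iff]
      exact ⟨hCL, le_top⟩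
    · intro G _ _ P₀ e hE
      left
      by_contra hn
      exact hne ⟨⟨G, P₀, e, hE, hn⟩⟩
  choose q M hloc using fun i : Conf p S₁ => i.loc hS₁Z hJ hZ
  set φ : ∀ i : Conf p S₁, P →* i.G := fun i => i.f with hφ
  have hφi : ∀ i, Function.Injective (φ i) := fun i => i.f_inj
  set β : P →* Monoid.PushoutI φ := Monoid.PushoutI.base φ with hβd
  have hβ : Function.Injective β := Monoid.PushoutI.base_injective hφi
  set ψ : ∀ i : Conf p S₁, i.G →* Monoid.PushoutI φ := fun i => Monoid.PushoutI.of i with hψd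
  have hψ : ∀ i, Function.Injective (ψ i) := fun i => Monoid.PushoutI.of_injective hφi i
  have hcomp : ∀ i, (ψ i).comp (φ i) = β := fun i => Monoid.PushoutI.of_comp_eq_base i
  have hmapβ : ∀ (i : Conf p S₁) (X : Subgroup P), X.map β = (X.map i.f).map (ψ i) := by
    intro i X
    rw [Subgroup.map_map, hcomp i]
  have hrange : ∀ i : Conf p S₁, i.P₀.map (ψ i) = β.range := by
    intro i
    rw [← i.map_top, ← hmapβ, ← MonoidHom.range_eq_map]
  have loc : ∀ i : Conf p S₁, Loc p (q i) β.range ((⊤ : Subgroup i.G).map (ψ i))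
      ((Cfsg.pCore p i.G).map (ψ i)) ((cen (Cfsg.pCore p i.G)).map (ψ i)) ((center i.G).map (ψ i))
      ((M i).map (ψ i)) := by
    intro i
    have h := (hloc i).map (ψ i) (hψ i)
    rwa [hrange i] at h
  have hrt : β.range = (⊤ : Subgroup P).map β := MonoidHom.range_eq_map β
  rcases main loc with hall | ⟨i, hi⟩
  swap
  · exfalso
    apply i.hn
    apply Conf.normal_of_le_center
    show S₁.map i.f ≤ _
    rintro _ ⟨x, hx, rfl⟩
    apply (map_mem_iff (ψ i) (hψ i)).mp
    apply hi
    have e1 : ψ i (i.f x) = β x := by rw [← hcomp i]; rfl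
    rw [e1]
    constructor
    · rw [hrt, ← s0_map]
      exact ⟨x, (hS₁ hx).1, rfl⟩
    · have h2 := (hS₁ hx).2
      refine ⟨⟨x, rfl⟩, mem_centralizer_iff.mpr ?_⟩
      rintro _ ⟨y, rfl⟩
      rw [← map_mul, ← map_mul, mem_center_iff.mp h2 y]
  obtain ⟨E, hE1, hE2, hE3, hE4, hE5⟩ := exists_E loc hall hβ hCL
  have key : ∀ (i : Conf p S₁) (F : Subgroup P),
      ((cen (Cfsg.pCore p i.G)).map (ψ i) ≤ F.map β ∧
        ∀ l ∈ (⊤ : Subgroup i.G).map (ψ i), cj l (F.map β) = F.map β) ↔
      (cen (Cfsg.pCore p i.G) ≤ F.map i.f ∧ (F.map i.f).Normal) := by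
    intro i F
    rw [hmapβ i, inv_iff_normal (hψ i), Subgroup.map_le_map_iff_of_injective (hψ i)]
  have hEc : E.Characteristic := by
    rw [characteristic_iff_le_map]
    intro α
    have hall' : ∀ i : Conf p S₁, (cen (Cfsg.pCore p i.G) ≤ (E.map α.toMonoidHom).map i.f ∧
        ((E.map α.toMonoidHom).map i.f).Normal) := by
      intro i
      have hα : ∀ X : Subgroup P, X.map (i.P₀.subtype.comp (α.trans i.e).toMonoidHom) =
          (X.map α.toMonoidHom).map i.f := by
        intro X
        rw [Subgroup.map_map]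
        rfl
      let i' : Conf p S₁ := ⟨i.G, i.P₀, α.trans i.e, i.hE, by
        rw [hα, characteristic_iff_map_eq.mp hS₁c α]
        exact i.hn⟩
      have h1 := (key i' E).mp ⟨hE3 i', hE4 i'⟩
      have h2 : E.map i'.f = (E.map α.toMonoidHom).map i.f := hα E
      rw [h2] at h1
      exact h1
    apply hE5
    · exact fun i => ((key i _).mpr (hall' i)).1
    · exact fun i => ((key i _).mpr (hall' i)).2
  refine ⟨centralizer (E : Set P), ?_, ?_, ?_, ?_⟩
  · intro h
    have h1 : center P ≤ centralizer (E : Set P) := by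
      intro x hx
      rw [mem_centralizer_iff]
      intro y _
      exact mem_center_iff.mp hx y
    rw [h, le_bot_iff] at h1
    have := hP.center_nontrivial
    rw [h1] at this
    obtain ⟨⟨x, hx⟩, ⟨y, hy⟩, hxy⟩ := this
    rw [mem_bot] at hx hy
    exact hxy (Subtype.ext (hx.trans hy.symm))
  · infer_instance
  · rw [H264.CD.isCentrallyLarge_iff]
    refine ⟨H264.CD.CL.centralizer hE1, ?_⟩
    rw [H264.CD.CL.cc hE1]
    exact hE2
  · intro G _ _ P₀ e hE
    by_cases hn : (S₁.map (P₀.subtype.comp e.toMonoidHom)).Normal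
    · exact Or.inl hn
    right
    let i : Conf p S₁ := ⟨G, P₀, e, hE, hn⟩
    show ((centralizer (E : Set P)).map i.f).Normal
    rw [← inv_iff_normal (hψ i), ← hmapβ i]
    intro l hl
    have c := loc i
    have h1 : (centralizer (E : Set P)).map β = β.range ⊓ centralizer (E.map β : Set _) := by
      have := map_cent β hβ ⊤ E
      rwa [top_inf_eq, ← hrt] at this
    have h2 : β.range ⊓ centralizer (E.map β : Set _) =
        (Cfsg.pCore p i.G).map (ψ i) ⊓ centralizer (E.map β : Set _) := by
      apply le_antisymm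
      · apply le_inf _ inf_le_right
        rw [← c.cV]
        exact inf_le_inf le_rfl (centralizer_le (SetLike.coe_subset_coe.mpr (hE3 i)))
      · exact inf_le_inf c.QS le_rfl
    rw [h1, h2]
    apply cj_inf_eq (c.Qn l hl)
    rw [cj_centralizer, hE4 i l hl]

end Cfsg.Agent.H260.GN
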