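import Cfsg.Agent.H260.Push5

/-!
# Rank one pushing up: Frattini subgroups of minimal centrally large subgroups (`S2989`)
-/

set_option autoImplicit false
set_option linter.unusedSectionVars false
set_option linter.unusedVariables false

namespace Cfsg.Agent.H260.Push

open Subgroup
open scoped commutatorElement

section

variable {G : Type*} [Group G]

/-- The set of commutators and `p`-th powers of `R`. -/
def phiSet (p : ℕ) (R : Subgroup G) : Set G :=
  {z | ∃ x ∈ R, ∃ y ∈ R, z = ⁅x, y⁆} ∪ {z | ∃ x ∈ R, z = x ^ p}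

/-- `Φ(R) = R' ℧(R)` for a `p`-group `R`. -/
def phi (p : ℕ) (R : Subgroup G) : Subgroup G := closure (phiSet p R)

theorem phi_le (p : ℕ) (R : Subgroup G) : phi p R ≤ R := by
  unfold phi
  rw [closure_le]
  rintro _ (⟨x, hx, y, hy, rfl⟩ | ⟨x, hx, rfl⟩)
  · rw [commutatorElement_def]
    exact R.mul_mem (R.mul_mem (R.mul_mem hx hy) (R.inv_mem hx)) (R.inv_mem hy)
  · exact R.pow_mem hx p

theorem comm_mem_phi {p : ℕ} {R : Subgroup G} {x y : G} (hx : x ∈ R) (hy : y ∈ R) : ⁅x, y⁆ ∈ phi p R :=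
  subset_closure (Or.inl ⟨x, hx, y, hy, rfl⟩)

theorem pow_mem_phi {p : ℕ} {R : Subgroup G} {x : G} (hx : x ∈ R) : x ^ p ∈ phi p R :=
  subset_closure (Or.inr ⟨x, hx, rfl⟩)

theorem phi_mono {p : ℕ} {R R' : Subgroup G} (h : R ≤ R') : phi p R ≤ phi p R' := by
  apply Subgroup.closure_mono
  rintro _ (⟨x, hx, y, hy, rfl⟩ | ⟨x, hx, rfl⟩)
  · exact Or.inl ⟨x, h hx, y, h hy, rfl⟩
  · exact Or.inr ⟨x, h hx, rfl⟩

theorem phi_map {G' : Type*} [Group G'] (f : G →* G') (p : ℕ) (R : Subgroup G) :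
    (phi p R).map f = phi p (R.map f) := by
  unfold phi
  rw [MonoidHom.map_closure]
  congr 1
  ext z
  constructor
  · rintro ⟨_, (⟨x, hx, y, hy, rfl⟩ | ⟨x, hx, rfl⟩), rfl⟩
    · exact Or.inl ⟨f x, ⟨x, hx, rfl⟩, f y, ⟨y, hy, rfl⟩, map_commutatorElement _ _ _⟩
    · exact Or.inr ⟨f x, ⟨x, hx, rfl⟩, map_pow _ _ _⟩
  · rintro (⟨_, ⟨x, hx, rfl⟩, _, ⟨y, hy, rfl⟩, rfl⟩ | ⟨_, ⟨x, hx, rfl⟩, rfl⟩)
    · exact ⟨_, Or.inl ⟨x, hx, y, hy, rfl⟩, map_commutatorElement _ _ _⟩
    · exact ⟨_, Or.inr ⟨x, hx, rfl⟩, map_pow _ _ _⟩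

theorem phi_cj (g : G) (p : ℕ) (R : Subgroup G) : cj g (phi p R) = phi p (cj g R) := phi_map _ _ _

theorem frattini_map_eq [Finite G] {p : ℕ} [Fact p.Prime] (R : Subgroup G) (hR : IsPGroup p R) :
    (frattini R).map R.subtype = phi p R := by
  have h1 : frattini R = phi p (⊤ : Subgroup R) := by
    apply le_antisymm
    · have hn : (phi p (⊤ : Subgroup R)).Normal := by
        constructor
        intro x hx g
        have h2 : g * x * g⁻¹ = ⁅g, x⁆ * x := by rw [commutatorElement_def]; group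
        rw [h2]
        exact mul_mem (comm_mem_phi (mem_top g) (mem_top x)) hx
      exact Lib.FrattiniPGroup.frattini_le (p := p) _ (fun x y => comm_mem_phi (mem_top x) (mem_top y))
        (fun x => pow_mem_phi (mem_top x))
    · unfold phi
      rw [closure_le]
      rintro _ (⟨x, hx, y, hy, rfl⟩ | ⟨x, hx, rfl⟩)
      · exact Lib.FrattiniPGroup.commutator_mem_frattini hR x y
      · exact Lib.FrattiniPGroup.pow_mem_frattini hR x
  rw [h1, phi_map]
  congr 1
  rw [← MonoidHom.range_eq_map, range_subtype]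

/-- If `R = A B` with `A ≤ Z(R)` and `A^p ≤ Φ(B)`, then `Φ(R) = Φ(B)`. -/
theorem phi_eq_of_central {p : ℕ} {R A B : Subgroup G} (hAR : A ≤ cen R) (hBR : B ≤ R)
    (hR : ∀ r ∈ R, ∃ a ∈ A, ∃ b ∈ B, a * b = r) (hA : ∀ a ∈ A, a ^ p ∈ phi p B) :
    phi p R = phi p B := by
  apply le_antisymm _ (phi_mono hBR)
  unfold phi
  rw [closure_le]
  rintro _ (⟨x, hx, y, hy, rfl⟩ | ⟨x, hx, rfl⟩)
  · obtain ⟨a, ha, b, hb, rfl⟩ := hR x hx
    obtain ⟨a', ha', b', hb', rfl⟩ := hR y hy
    have h1 : ∀ r ∈ R, r * a = a * r := fun r hr => cen_comm (hAR ha) hr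
    have h2 : ∀ r ∈ R, r * a' = a' * r := fun r hr => cen_comm (hAR ha') hr
    have hbR := hBR hb
    have hb'R := hBR hb'
    have e1 : ⁅a * b, a' * b'⁆ = ⁅b, b'⁆ := by
      rw [commutatorElement_def, commutatorElement_def]
      have c1 : a * b * (a' * b') = (b * b') * (a * a') := by
        rw [h2 b' hb'R |>.symm, ← mul_assoc, mul_assoc a b b', ← h1 _ (R.mul_mem hbR hb'R)]
        rw [mul_assoc]
      have c2 : a' * b' * (a * b) = (b' * b) * (a * a') := by
        have c3 : a' * b' * (a * b) = a' * (b' * a) * b := by group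
        rw [c3, h1 b' hb'R]
        have c4 : a' * (a * b') * b = a' * a * (b' * b) := by group
        have ha'R : a' ∈ R := (hAR ha').1
        have haR : a ∈ R := (hAR ha).1
        rw [c4, h1 a' ha'R, mul_assoc, ← h2 _ (R.mul_mem hb'R hbR), ← mul_assoc,
          ← h1 _ (R.mul_mem hb'R hbR), mul_assoc]
      have c5 : a * b * (a' * b') * (a * b)⁻¹ * (a' * b')⁻¹ =
          (a * b * (a' * b')) * (a' * b' * (a * b))⁻¹ := by group
      rw [c5, c1, c2]
      group
    rw [e1]
    exact comm_mem_phi hb hb'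
  · obtain ⟨a, ha, b, hb, rfl⟩ := hR x hx
    have h1 : Commute a b := (cen_comm (hAR ha) (hBR hb)).symm
    rw [h1.mul_pow]
    exact mul_mem (hA a ha) (pow_mem_phi hb)

/-- `Ω₁(Z(R))`. -/
def om (p : ℕ) (R : Subgroup G) : Subgroup G := Cfsg.omegaOne p (cen R)

theorem omegaOne_mem {p : ℕ} {A : Subgroup G} (hA : ∀ x ∈ A, ∀ y ∈ A, x * y = y * x) {x : G} :
    x ∈ Cfsg.omegaOne p A ↔ x ∈ A ∧ x ^ p = 1 := by
  unfold Cfsg.omegaOne
  constructor
  · intro h
    refine ⟨?_, ?_⟩
    · have : closure {x : G | x ∈ A ∧ x ^ p = 1} ≤ A := by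
        rw [closure_le]
        exact fun y hy => hy.1
      exact this h
    · induction h using closure_induction with
      | mem y hy => exact hy.2
      | one => simp
      | mul a b ha hb iha ihb =>
        have hle : closure {x : G | x ∈ A ∧ x ^ p = 1} ≤ A := by
          rw [closure_le]
          exact fun y hy => hy.1
        rw [(show Commute a b from hA a (hle ha) b (hle hb)).mul_pow, iha, ihb, one_mul]
      | inv a _ iha => rw [inv_pow, iha, inv_one]
  · intro h
    exact subset_closure h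

theorem cen_abel {R : Subgroup G} : ∀ x ∈ cen R, ∀ y ∈ cen R, x * y = y * x :=
  fun x hx y hy => cen_comm hy hx.1

theorem mem_om {p : ℕ} {R : Subgroup G} {x : G} : x ∈ om p R ↔ x ∈ cen R ∧ x ^ p = 1 :=
  omegaOne_mem cen_abel

theorem om_cj (g : G) (p : ℕ) (R : Subgroup G) : cj g (om p R) = om p (cj g R) := by
  ext x
  rw [mem_cj, mem_om, mem_om, ← cj_cen, mem_cj]
  have : (g⁻¹ * x * g) ^ p = g⁻¹ * x ^ p * g := by
    have := conj_pow (i := p) (a := g⁻¹) (b := x)
    rwa [inv_inv] at this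
  rw [this]
  constructor
  · rintro ⟨h1, h2⟩
    refine ⟨h1, ?_⟩
    have h3 : g⁻¹ * x ^ p = g⁻¹ := by
      rw [mul_eq_one_iff_eq_inv] at h2
      exact h2
    exact mul_eq_left.mp h3
  · rintro ⟨h1, h2⟩
    refine ⟨h1, ?_⟩
    rw [h2]; group

end

section

variable {G : Type*} [Group G] [Finite G] {p q : ℕ} [hp : Fact p.Prime] {S T M : Subgroup G}

/-- `V = Ω₁(Z(O_p(G)))` covers `X / Z(G)`. -/
theorem om_sup_center (c : Core p q S T M) (hZ : ¬ (cen S).Normal) (N : Core.Nat' p q S T M) :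
    om p T ⊔ center G = cen T := by
  have hTn := c.normT
  have hn : (om p T).Normal := by
    apply normal_of_cj
    intro g
    rw [om_cj, cj_normal g T]
  apply N.irr _ hn
  · intro x hx
    exact (mem_om.mp hx).1
  · intro hle
    -- every commutator [y, s] has order p
    apply hZ
    -- take y ∈ X, s ∈ S - T: cm y s ∈ center
    have hST : ∃ s ∈ S, s ∉ T := by
      by_contra h
      push Not at h
      exact c.ne (le_antisymm h c.le)
    obtain ⟨s, hs, hsT⟩ := hST
    have hX : cen T ≤ cen S := by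
      intro y hy
      apply N.cmc s hs hsT y hy
      apply hle
      rw [mem_om]
      exact ⟨c.cm_mem hy, N.comm_p s hs y hy⟩
    have h1 : cen S = cen T := le_antisymm c.Zs_le hX
    rw [h1]
    exact c.normX

/-- A minimal centrally large subgroup with `|Ω₁(Z(R))|` maximal. -/
def Top (p : ℕ) (S R : Subgroup G) : Prop :=
  MCL S R ∧ ∀ R' : Subgroup G, MCL S R' → Nat.card (om p R') ≤ Nat.card (om p R)

theorem exists_top (c : Core p q S T M) (hZ : ¬ (cen S).Normal) (N : Core.Nat' p q S T M)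
    {R : Subgroup G} (h : Top p S R) : ∃ R₁, Top p S R₁ ∧ R₁ ≤ T ∧ phi p R₁ = phi p R := by
  rcases mcl_cases c N h.1 with h1 | ⟨hcT, hRX, hM1, hcen⟩
  · exact ⟨R, h, h1.1, rfl⟩
  have hRS : R ≤ S := h.1.1.1
  have hXn := c.normX
  have hSR := h.1.1.cenS_le
  set X := cen T with hX
  have hXT : X ≤ T := cen_le T
  set R₁ := (R ⊓ T) ⊔ X with hR₁
  set V := om p T with hV
  have hVX : V ≤ X := fun x hx => (mem_om.mp hx).1
  have hVZ : V ⊔ center G = X := om_sup_center c hZ N
  have hcenR : center G ≤ R := c.center_le.trans hSR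
  -- |V| = q |V ⊓ cen S|
  have hVS : V ⊔ cen S = X := by
    apply le_antisymm (sup_le hVX c.Zs_le)
    rw [← hVZ]
    exact sup_le_sup_left c.center_le _
  have e1 : Nat.card V = q * Nat.card (V ⊓ cen S : Subgroup G) := by
    have h2 := card_mul_eq (c.cenX_le_norm V hVX c.Zs_le)
    rw [hVS, N.cardX] at h2
    apply Nat.eq_of_mul_eq_mul_right (Nat.card_pos (α := cen S))
    rw [← h2]; ring
  -- the elements of order p of Z(R) in T
  set O := om p R ⊓ T with hO
  have hOX : O ⊓ V = V ⊓ cen S := by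
    apply le_antisymm
    · rintro x ⟨⟨hx1, hx2⟩, hx3⟩
      refine ⟨hx3, ?_⟩
      rw [← hRX]
      exact ⟨(mem_om.mp hx1).1.1, hVX hx3⟩
    · rintro x ⟨hx1, hx2⟩
      refine ⟨⟨mem_om.mpr ?_, hXT (hVX hx1)⟩, hx1⟩
      exact ⟨⟨hSR hx2, centralizer_le (SetLike.coe_subset_coe.mpr hRS) hx2.2⟩, (mem_om.mp hx1).2⟩
  have hOV : O ≤ normalizer (V : Set G) := by
    have hTn := c.normT
    have hn : V.Normal := by
      apply normal_of_cj
      intro g
      rw [hV, om_cj, cj_normal g T]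
    rw [normalizer_eq_top_iff.mpr hn]
    exact le_top
  have e2 : Nat.card (O ⊔ V : Subgroup G) = q * Nat.card O := by
    have h2 := card_mul_eq hOV
    rw [hOX, e1] at h2
    apply Nat.eq_of_mul_eq_mul_right (Nat.card_pos (α := (V ⊓ cen S : Subgroup G)))
    rw [h2]; ring
  have hle : O ⊔ V ≤ om p R₁ := by
    apply sup_le
    · rintro x ⟨hx1, hx2⟩
      rw [mem_om, hcen]
      exact ⟨mem_sup_left ⟨(mem_om.mp hx1).1, hx2⟩, (mem_om.mp hx1).2⟩
    · intro x hx
      rw [mem_om, hcen]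
      exact ⟨mem_sup_right (hVX hx), (mem_om.mp hx).2⟩
  have i1 : Nat.card (O ⊔ V : Subgroup G) ≤ Nat.card (om p R₁) := Nat.card_mono (Set.toFinite _) hle
  have homS : om p R ≤ S := fun x hx => hRS (mem_om.mp hx).1.1
  have i2 : Nat.card (om p R) ≤ q * Nat.card O := card_le_q c homS
  have i3 := h.2 R₁ hM1
  have e3 : Nat.card (om p R) = q * Nat.card O := le_antisymm i2 (by rw [← e2]; exact i1.trans i3)
  have hTop : Top p S R₁ := by
    refine ⟨hM1, fun R' hR' => (h.2 R' hR').trans ?_⟩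
    rw [e3, ← e2]
    exact i1
  refine ⟨R₁, hTop, sup_le inf_le_right hXT, ?_⟩
  -- Φ(R₁) = Φ(R ⊓ T)
  have f1 : phi p R₁ = phi p (R ⊓ T) := by
    apply phi_eq_of_central (A := X)
    · intro x hx
      rw [hcen]
      exact mem_sup_right hx
    · exact le_sup_left
    · intro r hr
      have hn : X ≤ normalizer ((R ⊓ T : Subgroup G) : Set G) := by
        intro x hx
        rw [← cj_eq_iff_mem_normalizer]
        apply conj_cj'
        intro y hy
        have : y * x = x * y := cen_comm hx hy.2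
        rw [← this, mul_assoc, mul_inv_cancel, mul_one]
        exact hy
      rw [hR₁, sup_comm, ← SetLike.mem_coe, coe_mul_of_left_le_normalizer_right _ _ hn] at hr
      obtain ⟨a, ha, b, hb, hab⟩ := hr
      exact ⟨a, ha, b, hb, hab⟩
    · intro x hx
      rw [← hVZ] at hx
      have hn : V ≤ normalizer (center G : Set G) := by
        rw [normalizer_eq_top_iff.mpr inferInstance]
        exact le_top
      rw [← SetLike.mem_coe, coe_mul_of_left_le_normalizer_right _ _ hn] at hx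
      obtain ⟨v, hv, z, hz, rfl⟩ := hx
      have h2 : Commute v z := (mem_center_iff.mp hz v)
      simp only
      rw [h2.mul_pow, (mem_om.mp hv).2, one_mul]
      apply pow_mem_phi
      exact ⟨hcenR hz, hXT (c.Zs_le (c.center_le hz))⟩
  -- Φ(R) = Φ(R ⊓ T)
  have f2 : phi p R = phi p (R ⊓ T) := by
    apply phi_eq_of_central (A := om p R)
    · exact fun x hx => (mem_om.mp hx).1
    · exact inf_le_left
    · intro r hr
      have hn : om p R ≤ normalizer (T : Set G) := by
        rw [normalizer_eq_top_iff.mpr c.normT]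
        exact le_top
      have h2 : om p R ⊔ T = S := by
        apply eq_of_le_of_card_le (sup_le homS c.le)
        have h3 := card_mul_eq hn
        rw [e3] at h3
        have h4 : Nat.card (om p R ⊔ T : Subgroup G) * Nat.card O = (q * Nat.card T) * Nat.card O := by
          rw [hO, h3]; ring
        rw [Nat.eq_of_mul_eq_mul_right Nat.card_pos h4, c.card]
      have h3 : r ∈ om p R ⊔ T := by rw [h2]; exact hRS hr
      rw [← SetLike.mem_coe, coe_mul_of_left_le_normalizer_right _ _ hn] at h3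
      obtain ⟨a, ha, t, ht, hat⟩ := h3
      refine ⟨a, ha, t, ⟨?_, ht⟩, hat⟩
      have ha' : a ∈ R := (mem_om.mp ha).1.1
      have h5 : t = a⁻¹ * r := by rw [← hat]; simp
      rw [h5]
      exact R.mul_mem (R.inv_mem ha') hr
    · intro x hx
      rw [(mem_om.mp hx).2]
      exact one_mem _
  rw [f1, f2]

theorem top_conj (c : Core p q S T M) {R : Subgroup G} (h : Top p S R) (hR : R ≤ T) (g : G) :
    Top p S (cj g R) ∧ cj g R ≤ T := by
  obtain ⟨h1, h2⟩ := mcl_conj c h.1 hR g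
  refine ⟨⟨h1, ?_⟩, h2⟩
  intro R' hR'
  rw [← om_cj, card_cj]
  exact h.2 R' hR'

/-- **S2989, the first statement** (ambient form). -/
theorem phi_top_normal_or (c : Core p q S T M)
    (hJ : S ≤ centralizer (Cfsg.centerThompsonAOf S : Set G)) :
    (cen S).Normal ∨ (⨆ R : {R : Subgroup G // Top p S R}, phi p (R : Subgroup G)).Normal := by
  by_cases hZ : (cen S).Normal
  · exact Or.inl hZ
  right
  obtain ⟨A, hA, hAT⟩ := exists_large_not_le c hZ hJ
  have N := c.nat hZ hA hAT
  apply normal_of_cj_le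
  intro g
  set W := (⨆ R : {R : Subgroup G // Top p S R}, phi p (R : Subgroup G)) with hW
  have : W ≤ cj g⁻¹ W := by
    apply iSup_le
    rintro ⟨R, hR⟩
    obtain ⟨R₁, h1, h2, h3⟩ := exists_top c hZ N hR
    simp only
    rw [← h3]
    obtain ⟨h4, h5⟩ := top_conj c h1 h2 g
    have h6 : phi p (cj g R₁) ≤ W := le_iSup (fun R : {R : Subgroup G // Top p S R} => phi p (R : Subgroup G)) ⟨_, h4⟩
    rw [← phi_cj] at h6
    have h7 := cj_mono (g := g⁻¹) h6
    rwa [cj_inv_cj] at h7
  have h2 := cj_mono (g := g) this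
  rwa [cj_cj_inv] at h2

end

end Cfsg.Agent.H260.Push
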