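import Cfsg.Agent.H260.GN13
import Cfsg.Agent.H264.CDLarge
import Cfsg.Agent.Lib.NormalAbelian
import Cfsg.Agent.S2769
import Cfsg.Agent.S2770
import Cfsg.Agent.S2989
import Cfsg.Agent.S2990

/-!
# Glauberman-Niles, part 14: the reductions
-/

set_option autoImplicit false
set_option linter.unusedSectionVars false
set_option linter.unusedVariables false
set_option linter.style.haveILetI false

namespace Cfsg.Agent.H260.GN

open Subgroup Push
open scoped commutatorElement Pointwise

universe u

/-- `Z(J(P))`. -/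
abbrev zj (P : Type*) [Group P] : Subgroup P :=
  Cfsg.thompsonSubgroupA P ⊓ Subgroup.centralizer (Cfsg.thompsonSubgroupA P : Set P)

section transfer

variable {P G : Type*} [Group P] [Group G]

/-- the embedding -/
abbrev emb (P₀ : Subgroup G) (e : P ≃* P₀) : P →* G := P₀.subtype.comp (e : P ≃* ↥P₀).toMonoidHom

variable (P₀ : Subgroup G) (e : P ≃* P₀)

theorem emb_inj : Function.Injective (emb P₀ e) := by
  intro x y h
  exact e.injective (Subtype.ext h)

theorem emb_map (X : Subgroup P) : X.map (emb P₀ e) = (X.map e.toMonoidHom).map P₀.subtype := by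
  rw [Subgroup.map_map]

theorem emb_top : (⊤ : Subgroup P).map (emb P₀ e) = P₀ := by
  rw [emb_map]
  have : (⊤ : Subgroup P).map e.toMonoidHom = ⊤ := by
    rw [← MonoidHom.range_eq_map, MonoidHom.range_eq_top]
    exact e.surjective
  rw [this, ← MonoidHom.range_eq_map, range_subtype]

theorem emb_thompson : (Cfsg.thompsonSubgroupA P).map (emb P₀ e) = Cfsg.thompsonSubgroupAOf P₀ := by
  unfold Cfsg.thompsonSubgroupAOf
  rw [emb_map, thompson_map]

theorem emb_zj : (zj P).map (emb P₀ e) = Cfsg.centerThompsonAOf P₀ := by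
  unfold Cfsg.centerThompsonAOf
  have := map_cen (emb P₀ e) (emb_inj P₀ e) (Cfsg.thompsonSubgroupA P)
  rw [emb_thompson] at this
  exact this

theorem center_eq : center P = cen (⊤ : Subgroup P) := by
  ext x
  rw [mem_center_iff]
  constructor
  · intro h
    exact ⟨mem_top x, mem_centralizer_iff.mpr fun y _ => h y⟩
  · intro h y
    exact mem_centralizer_iff.mp h.2 y (mem_top y)

theorem emb_center : (center P).map (emb P₀ e) = P₀ ⊓ centralizer (P₀ : Set G) := by
  rw [center_eq, map_cen (emb P₀ e) (emb_inj P₀ e), emb_top]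
  rfl

theorem emb_centralizer (X : Subgroup P) :
    (centralizer (X : Set P)).map (emb P₀ e) = P₀ ⊓ centralizer (X.map (emb P₀ e) : Set G) := by
  have := map_cent (emb P₀ e) (emb_inj P₀ e) ⊤ X
  rwa [top_inf_eq, emb_top] at this

theorem minJoin_map_le {P' : Type*} [Group P'] (e : P ≃* P') :
    (Cfsg.minimalCentrallyLargeJoin P).map e.toMonoidHom ≤ Cfsg.minimalCentrallyLargeJoin P' := by
  unfold Cfsg.minimalCentrallyLargeJoin
  rw [Subgroup.map_le_iff_le_comap]
  apply sSup_le
  intro A hA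
  rw [← Subgroup.map_le_iff_le_comap]
  exact le_sSup ((ClEquiv.isMinimalCentrallyLarge_map e).mpr hA)

theorem minJoin_map {P' : Type*} [Group P'] (e : P ≃* P') :
    (Cfsg.minimalCentrallyLargeJoin P).map e.toMonoidHom = Cfsg.minimalCentrallyLargeJoin P' := by
  apply le_antisymm (minJoin_map_le e)
  have h := Subgroup.map_mono (f := e.toMonoidHom) (minJoin_map_le e.symm)
  rwa [ClEquiv.map_map_symm] at h

end transfer

/-- A solution. -/
structure Pair (p : ℕ) {P : Type u} [Group P] (S₁ S₂ : Subgroup P) : Prop where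
  ne1 : S₁ ≠ ⊥
  ne2 : S₂ ≠ ⊥
  ch1 : S₁.Characteristic
  ch2 : S₂.Characteristic
  le1 : S₁ ≤ center P
  le2 : S₂ ≤ centralizer (zj P : Set P)
  ch2' : (S₂.subgroupOf (centralizer (zj P : Set P))).Characteristic
  nrm : ∀ (G : Type u) [Group G] [Finite G] (P₀ : Subgroup G) (e : P ≃* P₀),
    Cfsg.IsPushingUpSituation p P₀ → (S₁.map (emb P₀ e)).Normal ∨ (S₂.map (emb P₀ e)).Normal

section

variable {P : Type u} [Group P]

theorem char_subgroupOf_top {S₂ X : Subgroup P} (hX : X = ⊤) (h : S₂.Characteristic) :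
    (S₂.subgroupOf X).Characteristic := by
  subst hX
  constructor
  intro φ
  ext x
  have h1 := h.fixed ((topEquiv.symm.trans φ).trans topEquiv)
  have h2 : (x : P) ∈ S₂.comap ((topEquiv.symm.trans φ).trans topEquiv).toMonoidHom ↔ (x : P) ∈ S₂ := by
    rw [h1]
  rw [mem_comap] at h2 ⊢
  rw [mem_subgroupOf, mem_subgroupOf]
  exact h2

theorem self_subgroupOf_char (X : Subgroup P) : (X.subgroupOf X).Characteristic := by
  rw [subgroupOf_self]
  infer_instance

instance thompson_char : (Cfsg.thompsonSubgroupA P).Characteristic := by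
  rw [characteristic_iff_map_eq]
  intro φ
  exact thompson_map φ

instance minJoin_char : (Cfsg.minimalCentrallyLargeJoin P).Characteristic := by
  rw [characteristic_iff_map_eq]
  intro φ
  exact minJoin_map φ

theorem pc_char {p : ℕ} {X : Subgroup P} (h : X.Characteristic) : (Cfsg.powerClosure p 1 X).Characteristic := by
  rw [characteristic_iff_map_eq]
  intro φ
  rw [pc_map, characteristic_iff_map_eq.mp h φ]

theorem s0_char {p : ℕ} : (s0 p (⊤ : Subgroup P)).Characteristic := by
  rw [characteristic_iff_map_eq]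
  intro φ
  rw [s0_map]
  congr 1
  rw [← MonoidHom.range_eq_map, MonoidHom.range_eq_top]
  exact φ.surjective

theorem center_le_centralizer (X : Subgroup P) : center P ≤ centralizer (X : Set P) := by
  intro x hx
  rw [mem_centralizer_iff]
  intro y _
  exact mem_center_iff.mp hx y

variable [Finite P] {p : ℕ} [hp : Fact p.Prime]

theorem inf_center_ne (hP : IsPGroup p P) {N : Subgroup P} (hN : N.Normal) (h : N ≠ ⊥) :
    N ⊓ center P ≠ ⊥ := by
  haveI := hP.isNilpotent
  exact Lib.NormalAbelian.normal_inf_center_ne_bot N h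

theorem center_ne [Nontrivial P] (hP : IsPGroup p P) : center P ≠ ⊥ := by
  haveI := hP.isNilpotent
  exact Group.IsNilpotent.center_ne_bot P

theorem n_pos {F : Type*} [Field F] [Fintype F] {n : ℕ} (hF : Fintype.card F = p ^ n) : 1 ≤ n := by
  rcases Nat.eq_zero_or_pos n with h | h
  · exfalso
    rw [h, pow_zero] at hF
    have := Fintype.one_lt_card (α := F)
    omega
  · exact h

/-- first case: `[Z(J(P)), P] ≠ 1`. -/
theorem pair_case1 [Nontrivial P] (hP : IsPGroup p P) (h : ⁅zj P, (⊤ : Subgroup P)⁆ ≠ ⊥) :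
    Pair p (⁅zj P, (⊤ : Subgroup P)⁆ ⊓ center P) (centralizer (zj P : Set P)) where
  ne1 := inf_center_ne hP inferInstance h
  ne2 := fun h1 => center_ne hP (le_bot_iff.mp ((center_le_centralizer (zj P)).trans h1.le))
  ch1 := inferInstance
  ch2 := inferInstance
  le1 := inf_le_right
  le2 := le_rfl
  ch2' := self_subgroupOf_char _
  nrm := by
    intro G _ _ P₀ e hE
    obtain ⟨-, ⟨Q, hQ⟩, hc, hM, K, hK, F, _, _, n, hF, he⟩ := hE
    subst hQ
    have h1 : ⁅Cfsg.centerThompsonAOf (Q : Subgroup G), (Q : Subgroup G)⁆ ≠ ⊥ := by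
      intro h2
      apply h
      apply Subgroup.map_injective (emb_inj (Q : Subgroup G) e)
      rw [Subgroup.map_commutator, emb_zj, emb_top, h2, Subgroup.map_bot]
    have := S2769.result Q hc hM K F n (n_pos (p := p) hF) hF he h1
    rwa [Subgroup.map_inf _ _ _ (emb_inj (Q : Subgroup G) e), Subgroup.map_commutator, emb_zj, emb_top,
      emb_center, emb_centralizer, emb_zj]

/-- second case: `Z(P)` is not elementary abelian. -/
theorem pair_case2 [Nontrivial P] (hP : IsPGroup p P) {z : P} (hz : z ∈ center P) (hz' : z ^ p ≠ 1) :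
    Pair p (Cfsg.powerClosure p 1 (center P)) (centralizer (zj P : Set P)) where
  ne1 := by
    intro h
    apply hz'
    have : z ^ p ∈ Cfsg.powerClosure p 1 (center P) := subset_closure ⟨z, hz, by rw [pow_one]⟩
    rwa [h, mem_bot] at this
  ne2 := fun h1 => center_ne hP (le_bot_iff.mp ((center_le_centralizer (zj P)).trans h1.le))
  ch1 := pc_char inferInstance
  ch2 := inferInstance
  le1 := pc_le
  le2 := le_rfl
  ch2' := self_subgroupOf_char _
  nrm := by
    intro G _ _ P₀ e hE
    obtain ⟨-, ⟨Q, hQ⟩, hc, hM, K, hK, F, _, _, n, hF, he⟩ := hE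
    subst hQ
    have h1 : ¬ Cfsg.IsElementaryAbelian p ((Q : Subgroup G) ⊓ centralizer ((Q : Subgroup G) : Set G)) := by
      rintro ⟨-, h2⟩
      apply hz'
      apply emb_inj (Q : Subgroup G) e
      rw [map_pow, map_one]
      apply h2
      rw [← emb_center (Q : Subgroup G) e]
      exact ⟨z, hz, rfl⟩
    have := S2770.result Q hc hM K F n (n_pos (p := p) hF) hF he h1
    rwa [pc_map, emb_center, emb_centralizer, emb_zj]

/-- third case: `P` abelian. -/
theorem pair_abelian [Nontrivial P] (h : ∀ x y : P, x * y = y * x) :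
    Pair p (⊤ : Subgroup P) (⊤ : Subgroup P) := by
  have hc : center P = ⊤ := by
    rw [eq_top_iff]
    intro x _
    rw [mem_center_iff]
    exact fun y => h y x
  have ht : centralizer (zj P : Set P) = ⊤ := by
    rw [eq_top_iff, ← hc]
    exact center_le_centralizer _
  refine ⟨top_ne_bot, top_ne_bot, inferInstance, inferInstance, hc.ge, ht.ge,
    char_subgroupOf_top ht inferInstance, ?_⟩
  intro G _ _ P₀ e hE
  exfalso
  obtain ⟨q, M, c⟩ := exists_core hE
  apply c.ne
  apply le_antisymm _ c.le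
  refine le_trans ?_ c.cent
  intro x hx
  rw [mem_centralizer_iff]
  intro y hy
  have hy' := c.le hy
  have h1 := h (e.symm ⟨y, hy'⟩) (e.symm ⟨x, hx⟩)
  have h2 := congrArg e h1
  rw [map_mul, map_mul, e.apply_symm_apply, e.apply_symm_apply] at h2
  exact congrArg Subtype.val h2

/-- the maximal central product of a centrally large subgroup. -/
theorem mcp_eq {R : Subgroup P} (h : Cfsg.IsCentrallyLarge R) :
    Cfsg.maxCentralProduct R = Cfsg.maxCentralProduct P := by
  apply le_antisymm
  · obtain ⟨R', hR'⟩ := H264.CD.exists_cent (G := R)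
    unfold Cfsg.IsCentrallyLarge at hR'
    rw [← hR']
    have e1 : Nat.card (R'.map R.subtype) = Nat.card R' := card_map_sub R R'
    have e2 : mu (R'.map R.subtype) = Nat.card R' * Nat.card (center R') := mu_map R R'
    rw [← e2]
    have e3 := H264.CD.cent_le (R'.map R.subtype)
    unfold mu
    rwa [H264.CD.card_center_eq] at e3
  · unfold Cfsg.IsCentrallyLarge at h
    rw [← h]
    have := H264.CD.cent_le (⊤ : Subgroup R)
    have e1 : Nat.card (⊤ : Subgroup R) = Nat.card R := Nat.card_congr (topEquiv).toEquiv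
    have e2 : Nat.card (center (⊤ : Subgroup R)) = Nat.card (center R) :=
      Nat.card_congr (Subgroup.centerCongr topEquiv).toEquiv
    rwa [e1, e2] at this

theorem mcp_top {X : Subgroup P} (h : X = ⊤) : Cfsg.maxCentralProduct X = Cfsg.maxCentralProduct P := by
  subst h
  exact ClEquiv.maxCentralProduct_eq topEquiv

theorem cl_ne_bot [Nontrivial P] (hP : IsPGroup p P) {R : Subgroup P} (h : Cfsg.IsCentrallyLarge R) :
    R ≠ ⊥ := by
  intro h1
  have h2 := H264.CD.CL.center_le ((H264.CD.isCentrallyLarge_iff R).mp h).1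
  rw [h1] at h2
  exact center_ne hP (le_bot_iff.mp h2)

/-- fourth case: non-abelian minimal centrally large subgroups. -/
theorem pair_case4 [Nontrivial P] (hP : IsPGroup p P) (ht : centralizer (zj P : Set P) = ⊤)
    {Q : Subgroup P} (hQ : Cfsg.IsMinimalCentrallyLarge Q) (hne : ⁅Q, Q⁆ ≠ ⊥) :
    Pair p (⁅Q, Q⁆ ⊓ center P) (Cfsg.minimalCentrallyLargeJoin P) := by
  have hch : (⁅Q, Q⁆).Characteristic := by
    rw [Subgroup.characteristic_iff_map_eq]
    intro φ
    rw [Subgroup.map_commutator]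
    exact H264.CD.commutator_eq' ((ClEquiv.isMinimalCentrallyLarge_map φ).mpr hQ) hQ
  refine ⟨inf_center_ne hP inferInstance hne, cl_ne_bot hP H264.CD.isCentrallyLarge_minJoin, inferInstance,
    inferInstance, inf_le_right, ?_, char_subgroupOf_top ht inferInstance, ?_⟩
  · rw [ht]; exact le_top
  intro G _ _ P₀ e hE
  have hJ : P₀ ≤ centralizer (Cfsg.centerThompsonAOf P₀ : Set G) := by
    have h1 := emb_centralizer P₀ e (zj P)
    rw [ht, emb_top, emb_zj] at h1
    exact h1.le.trans inf_le_right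
  have h1 := (S2990.result P₀ hE hJ (Q.map e.toMonoidHom)
    ((ClEquiv.isMinimalCentrallyLarge_map e).mpr hQ)).2.1
  rw [Subgroup.map_inf _ _ _ (emb_inj P₀ e), emb_center, emb_map P₀ e (Cfsg.minimalCentrallyLargeJoin P),
    minJoin_map, emb_map, Subgroup.map_commutator, inf_comm]
  exact h1

/-- If the minimal centrally large subgroups are abelian and `Z(J(P)) ≤ Z(P)` then `P = J(P)`. -/
theorem thompson_top (ht : centralizer (zj P : Set P) = ⊤) {Q : Subgroup P}
    (hQ : Cfsg.IsMinimalCentrallyLarge Q) (hc : ⁅Q, Q⁆ = ⊥) :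
    Cfsg.thompsonSubgroupA P = ⊤ ∧ Cfsg.IsCentralizerLarge (⊤ : Subgroup P) ∧
      ∀ A ∈ Cfsg.maxAbelianSubgroups P, Cfsg.IsMinimalCentrallyLarge A := by
  have hQc : Q ≤ centralizer (Q : Set P) := commutator_eq_bot_iff_le_centralizer.mp hc
  have hiff := H264.CD.min_iff_of_comm hQ hQc
  have hJ : Cfsg.thompsonSubgroupA P = Cfsg.minimalCentrallyLargeJoin P := by
    unfold Cfsg.thompsonSubgroupA Cfsg.minimalCentrallyLargeJoin
    congr 1
    ext A
    exact (hiff A).symm
  have hcl : Cfsg.IsCentrallyLarge (Cfsg.thompsonSubgroupA P) := by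
    rw [hJ]
    exact H264.CD.isCentrallyLarge_minJoin
  rw [H264.CD.isCentrallyLarge_iff] at hcl
  have h1 : zj P = centralizer (Cfsg.thompsonSubgroupA P : Set P) := by
    have h9 : Cfsg.thompsonSubgroupA P ⊓ centralizer (Cfsg.thompsonSubgroupA P : Set P) =
        centralizer (Cfsg.thompsonSubgroupA P : Set P) := by
      apply inf_of_le_right
      exact hcl.2
    exact h9
  have h2 := H264.CD.CL.cc hcl.1
  rw [← h1, ht] at h2
  refine ⟨h2.symm, ?_, fun A hA => (hiff A).mpr hA⟩
  rw [h2]
  exact hcl.1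

/-- the numerical conditions. -/
theorem num_of (hCL : Cfsg.IsCentralizerLarge (⊤ : Subgroup P))
    (hmin : ∀ A ∈ Cfsg.maxAbelianSubgroups P, Cfsg.IsMinimalCentrallyLarge A) :
    ∀ A ∈ Cfsg.maxAbelianSubgroups P, ∀ B ∈ Cfsg.maxAbelianSubgroups P, ∀ Q : Subgroup P,
      Nat.card ↥A ^ 2 = Nat.card P * Nat.card ↥(Subgroup.center P) ∧
      Nat.card ↥Q * Nat.card ↥(Subgroup.center ↥Q) ≤ Nat.card P * Nat.card ↥(Subgroup.center P) ∧
      ((A ⊔ B : Subgroup P) : Set P) = (A : Set P) * (B : Set P) ∧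
      A ⊔ B = Subgroup.centralizer ((A ⊓ B : Subgroup P) : Set P) := by
  intro A hA B hB Q
  have hmax : Cfsg.maxCentralizerProduct P = Nat.card P * Nat.card (center P) := by
    unfold Cfsg.IsCentralizerLarge at hCL
    rw [← hCL, Subgroup.card_top, coe_top, centralizer_univ]
  have hcA := ((H264.CD.isCentrallyLarge_iff A).mp (hmin A hA).1).1
  have hcB := ((H264.CD.isCentrallyLarge_iff B).mp (hmin B hB).1).1
  have eA : centralizer (A : Set P) = A := H264.CD.MA.centralizer_eq hA
  have eB : centralizer (B : Set P) = B := H264.CD.MA.centralizer_eq hB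
  refine ⟨?_, ?_, H264.CD.CL.sup_eq_mul hcA hcB, ?_⟩
  · have h1 := hcA
    unfold Cfsg.IsCentralizerLarge at h1
    rw [eA, hmax] at h1
    rw [pow_two]
    exact h1
  · have h1 := H264.CD.cent_le Q
    rwa [H264.CD.max_eq, hmax] at h1
  · rw [H264.CD.CL.centralizer_inf hcA hcB, eA, eB]

/-- last case. -/
theorem pair_last [Nontrivial P] (hP : IsPGroup p P) (hJ : Cfsg.thompsonSubgroupA P = ⊤)
    (hZ : ∀ z ∈ center P, z ^ p = 1) (hCL : Cfsg.IsCentralizerLarge (⊤ : Subgroup P))
    (ht : centralizer (zj P : Set P) = ⊤) (h0 : s0 p (⊤ : Subgroup P) ≠ ⊥) :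
    ∃ S₂, Pair p (s0 p (⊤ : Subgroup P) ⊓ center P) S₂ ∧ Cfsg.IsCentrallyLarge S₂ := by
  haveI := s0_char (P := P) (p := p)
  obtain ⟨S₂, h1, h2, h3, h4⟩ := exists_S₂ hP (s0 p (⊤ : Subgroup P) ⊓ center P) inferInstance le_rfl hJ hZ hCL
  refine ⟨S₂, ⟨inf_center_ne hP inferInstance h0, h1, inferInstance, h2, inf_le_right, ?_,
    char_subgroupOf_top ht h2, ?_⟩, h3⟩
  · rw [ht]; exact le_top
  · intro G _ _ P₀ e hE
    exact h4 G P₀ e hE

theorem frattini_eq_phi (hP : IsPGroup p P) : frattini P = phi p (⊤ : Subgroup P) := by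
  apply le_antisymm
  · have hn : (phi p (⊤ : Subgroup P)).Normal := by
      constructor
      intro x hx g
      have h2 : g * x * g⁻¹ = ⁅g, x⁆ * x := by rw [commutatorElement_def]; group
      rw [h2]
      exact mul_mem (comm_mem_phi (mem_top g) (mem_top x)) hx
    exact Lib.FrattiniPGroup.frattini_le (p := p) _ (fun x y => comm_mem_phi (mem_top x) (mem_top y))
      (fun x => pow_mem_phi (mem_top x))
  · unfold phi
    rw [closure_le]
    rintro _ (⟨x, hx, y, hy, rfl⟩ | ⟨x, hx, rfl⟩)
    · exact Lib.FrattiniPGroup.commutator_mem_frattini hP x y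
    · exact Lib.FrattiniPGroup.pow_mem_frattini hP x

theorem phi_bot_iff {X : Subgroup P} (h : phi p X = ⊥) :
    IsMulCommutative X ∧ ∀ x ∈ X, x ^ p = 1 := by
  constructor
  · rw [comm_iff_all]
    intro x hx y hy
    have h1 := comm_mem_phi (p := p) hx hy
    rw [h, mem_bot, commutatorElement_eq_one_iff_mul_comm] at h1
    exact h1
  · intro x hx
    have h1 := pow_mem_phi (p := p) hx
    rwa [h, mem_bot] at h1

theorem comm_top_bot {X : Subgroup P} (h : ⁅X, (⊤ : Subgroup P)⁆ = ⊥) : X ≤ center P := by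
  intro x hx
  rw [mem_center_iff]
  intro y
  have h1 := commutator_mem_commutator hx (mem_top y)
  rw [h, mem_bot, commutatorElement_eq_one_iff_mul_comm] at h1
  exact h1.symm

theorem le_ucs_two {X : Subgroup P} (h : ⁅X, (⊤ : Subgroup P)⁆ ≤ center P) :
    X ≤ Subgroup.upperCentralSeries P 2 := by
  intro x hx
  rw [Subgroup.mem_upperCentralSeries_succ_iff]
  intro y
  rw [Subgroup.upperCentralSeries_one]
  have := h (commutator_mem_commutator hx (mem_top y))
  rwa [commutatorElement_def] at this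

theorem ucs_two_le {X : Subgroup P} (h : X ≤ Subgroup.upperCentralSeries P 2) :
    ⁅X, (⊤ : Subgroup P)⁆ ≤ center P := by
  rw [Subgroup.commutator_le]
  intro x hx y _
  have h1 := h hx
  rw [Subgroup.mem_upperCentralSeries_succ_iff] at h1
  have h2 := h1 y
  rw [Subgroup.upperCentralSeries_one] at h2
  rwa [commutatorElement_def]

/-- `S₀ = 1` implies the exceptional conditions. -/
theorem exc_of_s0 [Nontrivial P] (hP : IsPGroup p P) (h0 : s0 p (⊤ : Subgroup P) = ⊥) :
    Cfsg.IsElementaryAbelian p (frattini P) ∧ (p = 2 → frattini P ≤ center P) ∧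
      (p = 3 → frattini P ≤ Subgroup.upperCentralSeries P 2) ∧
      (3 < p → frattini P ≤ center P ∧ Monoid.exponent P = p) := by
  rw [frattini_eq_phi hP]
  unfold s0 at h0
  split_ifs at h0 with h2 h3
  · rw [sup_eq_bot_iff] at h0
    refine ⟨phi_bot_iff h0.2, fun _ => comm_top_bot h0.1, fun h => ?_, fun h => ?_⟩ <;> omega
  · rw [sup_eq_bot_iff] at h0
    refine ⟨phi_bot_iff h0.2, fun h => ?_, fun _ => le_ucs_two (comm_top_bot h0.1), fun h => ?_⟩ <;> omega
  · rw [sup_eq_bot_iff] at h0
    have h4 := comm_top_bot h0.1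
    have h5 : ∀ x : P, x ^ p = 1 := by
      intro x
      have : x ^ p ∈ Cfsg.powerClosure p 1 (⊤ : Subgroup P) :=
        subset_closure ⟨x, mem_top x, by rw [pow_one]⟩
      rwa [h0.2, mem_bot] at this
    refine ⟨⟨?_, fun x _ => h5 x⟩, fun h => ?_, fun h => ?_, fun _ => ⟨h4, ?_⟩⟩
    · rw [comm_iff_all]
      intro x hx y _
      exact (mem_center_iff.mp (h4 hx) y).symm
    · omega
    · omega
    · have h6 : Monoid.exponent P ∣ p := Monoid.exponent_dvd_of_forall_pow_eq_one h5
      rcases (Nat.dvd_prime hp.out).mp h6 with h7 | h7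
      · exfalso
        rw [Monoid.exp_eq_one_iff] at h7
        exact not_subsingleton P h7
      · exact h7

/-- the exceptional conditions imply `S₀ = 1`. -/
theorem s0_of_exc (hP : IsPGroup p P) (h1 : Cfsg.IsElementaryAbelian p (frattini P))
    (h2 : p = 2 → frattini P ≤ center P) (h3 : p = 3 → frattini P ≤ Subgroup.upperCentralSeries P 2)
    (h4 : 3 < p → frattini P ≤ center P ∧ Monoid.exponent P = p) : s0 p (⊤ : Subgroup P) = ⊥ := by
  rw [frattini_eq_phi hP] at h1 h2 h3 h4
  have h5 : phi p (phi p (⊤ : Subgroup P)) = ⊥ := by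
    apply phi_bot_of
    · intro x hx y hy
      exact (comm_iff_all _).mp h1.1 x hx y hy
    · exact h1.2
  have h6 : ∀ X : Subgroup P, X ≤ center P → ⁅X, (⊤ : Subgroup P)⁆ = ⊥ := by
    intro X hX
    apply comm_bot_of
    intro x hx y _
    exact (mem_center_iff.mp (hX hx) y).symm
  unfold s0
  split_ifs with k2 k3
  · rw [h5, h6 _ (h2 k2), sup_bot_eq]
  · rw [h5, h6 _ (ucs_two_le (h3 k3)), sup_bot_eq]
  · have hp2 := hp.out.two_le
    obtain ⟨k4, k5⟩ := h4 (by omega)
    rw [h6 _ k4, bot_sup_eq]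
    apply pc_bot_of
    intro x _
    rw [← k5]
    exact Monoid.pow_exponent_eq_one x

end

end Cfsg.Agent.H260.GN
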