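import Cfsg.Agent.H260.GN14

/-!
# Glauberman-Niles, part 15: no elementary abelian large subgroups
-/

set_option autoImplicit false
set_option linter.unusedSectionVars false
set_option linter.unusedVariables false
set_option linter.style.haveILetI false

namespace Cfsg.Agent.H260.GN

open Subgroup Push
open scoped commutatorElement Pointwise

universe u

section equivariance

variable {P P' : Type*} [Group P] [Group P']

theorem omega_map (e : P ≃* P') (p : ℕ) (X : Subgroup P) :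
    (Cfsg.omegaOneCenter p X).map e.toMonoidHom = Cfsg.omegaOneCenter p (X.map e.toMonoidHom) := by
  unfold Cfsg.omegaOneCenter Cfsg.omegaOne
  have h : (X.map e.toMonoidHom) ⊓ centralizer ((X.map e.toMonoidHom : Subgroup P') : Set P') =
      (X ⊓ centralizer (X : Set P)).map e.toMonoidHom := (map_cen e.toMonoidHom e.injective X).symm
  rw [h, MonoidHom.map_closure]
  congr 1
  ext z
  constructor
  · rintro ⟨x, ⟨hx, hxp⟩, rfl⟩
    refine ⟨⟨x, hx, rfl⟩, ?_⟩
    rw [← map_pow, hxp, map_one]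
  · rintro ⟨⟨x, hx, rfl⟩, hxp⟩
    refine ⟨x, ⟨hx, ?_⟩, rfl⟩
    apply e.injective
    rw [map_pow, map_one]
    exact hxp

theorem card_omega_map (e : P ≃* P') (p : ℕ) (X : Subgroup P) :
    Nat.card (Cfsg.omegaOneCenter p (X.map e.toMonoidHom)) = Nat.card (Cfsg.omegaOneCenter p X) := by
  rw [← omega_map, ClEquiv.card_map]

theorem mz_eq (e : P ≃* P') (p : ℕ) :
    Cfsg.maxOmegaCenterOfMinimalCL p P = Cfsg.maxOmegaCenterOfMinimalCL p P' := by
  unfold Cfsg.maxOmegaCenterOfMinimalCL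
  congr 1
  ext k
  constructor
  · rintro ⟨Q, hQ, rfl⟩
    exact ⟨Q.map e.toMonoidHom, (ClEquiv.isMinimalCentrallyLarge_map e).mpr hQ, card_omega_map e p Q⟩
  · rintro ⟨Q, hQ, rfl⟩
    exact ⟨Q.map e.symm.toMonoidHom, (ClEquiv.isMinimalCentrallyLarge_map e.symm).mpr hQ,
      card_omega_map e.symm p Q⟩

variable {p : ℕ} [hp : Fact p.Prime]

theorem frattini_sub_eq [Finite P] (hP : IsPGroup p P) (Q : Subgroup P) :
    (frattini Q).map Q.subtype = phi p Q := frattini_map_eq Q (hP.to_subgroup Q)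

theorem fj_map_le [Finite P] [Finite P'] (e : P ≃* P') (hP : IsPGroup p P) (hP' : IsPGroup p P') :
    (Cfsg.frattiniOfMinimalCLJoin p P).map e.toMonoidHom ≤ Cfsg.frattiniOfMinimalCLJoin p P' := by
  unfold Cfsg.frattiniOfMinimalCLJoin
  rw [Subgroup.map_iSup]
  apply iSup_le
  rintro ⟨Q, hQ1, hQ2⟩
  rw [frattini_sub_eq hP, phi_map]
  have h1 : Cfsg.IsMinimalCentrallyLarge (Q.map e.toMonoidHom) ∧
      Nat.card (Cfsg.omegaOneCenter p (Q.map e.toMonoidHom)) = Cfsg.maxOmegaCenterOfMinimalCL p P' := by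
    refine ⟨(ClEquiv.isMinimalCentrallyLarge_map e).mpr hQ1, ?_⟩
    rw [card_omega_map, hQ2, mz_eq e]
  simp only
  rw [← frattini_sub_eq hP']
  exact le_iSup (fun Q : {Q : Subgroup P' // Cfsg.IsMinimalCentrallyLarge Q ∧
    Nat.card (Cfsg.omegaOneCenter p Q) = Cfsg.maxOmegaCenterOfMinimalCL p P'} =>
      ((frattini (Q : Subgroup P')).map (Q : Subgroup P').subtype)) ⟨_, h1⟩

theorem fj_map [Finite P] [Finite P'] (e : P ≃* P') (hP : IsPGroup p P) (hP' : IsPGroup p P') :
    (Cfsg.frattiniOfMinimalCLJoin p P).map e.toMonoidHom = Cfsg.frattiniOfMinimalCLJoin p P' := by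
  apply le_antisymm (fj_map_le e hP hP')
  have h := Subgroup.map_mono (f := e.toMonoidHom) (fj_map_le e.symm hP' hP)
  rwa [ClEquiv.map_map_symm] at h

end equivariance

theorem pair_frattini {P : Type u} [Group P] [Finite P] [Nontrivial P] {p : ℕ} [hp : Fact p.Prime]
    (hP : IsPGroup p P) (hJ : Cfsg.thompsonSubgroupA P = ⊤)
    (hel : ¬ ∃ A ∈ Cfsg.maxAbelianSubgroups P, Cfsg.IsElementaryAbelian p A) :
    Pair p (center P) (Cfsg.frattiniOfMinimalCLJoin p P) := by
  have ht : centralizer (zj P : Set P) = ⊤ := by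
    rw [eq_top_iff, Subgroup.le_centralizer_iff]
    unfold zj
    rw [hJ]
    exact inf_le_right
  have hch : (Cfsg.frattiniOfMinimalCLJoin p P).Characteristic := by
    rw [characteristic_iff_map_eq]
    intro φ
    exact fj_map φ hP hP
  refine ⟨center_ne hP, ?_, inferInstance, hch, le_rfl, ?_, char_subgroupOf_top ht hch, ?_⟩
  · intro h
    obtain ⟨Q, hQ1, hQ2, hQ3⟩ := S2989.elem_of_bot p hP h
    exact hel ⟨Q, (H264.CD.min_iff_of_comm hQ1 hQ2 Q).mp hQ1, (H264.CD.isMulCommutative_iff Q).mpr hQ2, hQ3⟩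
  · rw [ht]; exact le_top
  intro G _ _ P₀ e hE
  have hJ' : P₀ ≤ centralizer (Cfsg.centerThompsonAOf P₀ : Set G) := by
    have h1 := emb_centralizer P₀ e (zj P)
    rw [ht, emb_top, emb_zj] at h1
    exact h1.le.trans inf_le_right
  have h1 := (S2989.result P₀ hE hJ').1
  have hP₀ : IsPGroup p P₀ := hP.of_equiv e
  rw [emb_center, emb_map, fj_map e hP hP₀]
  exact h1

end Cfsg.Agent.H260.GN
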