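import Cfsg.Agent.H260.GN2

/-!
# Glauberman-Niles, part 3: dead ends at distance at least two (local part)
-/

set_option autoImplicit false
set_option linter.unusedSectionVars false
set_option linter.unusedVariables false
set_option linter.style.haveILetI false

namespace Cfsg.Agent.H260.GN

open Subgroup Push
open scoped commutatorElement

variable {G : Type*} [Group G]

theorem tr_cj {M A B : Subgroup G} {hB : ∀ g ∈ M, cj g B = B} {g : G} (hM : cj g M = M)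
    (hA : cj g A = A) (hBg : cj g B = B) : cj g (tr M A B hB) = tr M A B hB := by
  have key : ∀ g, cj g M = M → cj g A = A → cj g B = B → cj g (tr M A B hB) ≤ tr M A B hB := by
    intro g hM hA hBg x hx
    rw [mem_cj] at hx
    obtain ⟨h1, h2⟩ := hx
    refine ⟨?_, ?_⟩
    · rw [← mem_cj, hM] at h1
      exact h1
    · intro a ha
      have ha' : g⁻¹ * a * g ∈ A := by
        rw [← mem_cj, hA]
        exact ha
      have h3 := conj_mem_cj (g := g) (h2 _ ha')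
      rw [hBg] at h3
      have e : g * (g⁻¹ * x * g * (g⁻¹ * a * g) * (g⁻¹ * x * g)⁻¹ * (g⁻¹ * a * g)⁻¹) * g⁻¹ =
          x * a * x⁻¹ * a⁻¹ := by group
      rwa [e] at h3
  apply le_antisymm (key g hM hA hBg)
  rw [le_cj_iff]
  exact key _ (cj_inv_eq hM) (cj_inv_eq hA) (cj_inv_eq hBg)

/-- For `g` fixed, the `x ∈ N` with `[g,x] ∈ B` form a subgroup. -/
def cs (g : G) (N B : Subgroup G) (hB : ∀ x ∈ N, cj x B = B) : Subgroup G where
  carrier := {x | x ∈ N ∧ g * x * g⁻¹ * x⁻¹ ∈ B}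
  one_mem' := ⟨N.one_mem, by simp⟩
  mul_mem' := by
    rintro x y ⟨hx, hx'⟩ ⟨hy, hy'⟩
    refine ⟨N.mul_mem hx hy, ?_⟩
    have e : g * (x * y) * g⁻¹ * (x * y)⁻¹ = (g * x * g⁻¹ * x⁻¹) * (x * (g * y * g⁻¹ * y⁻¹) * x⁻¹) := by
      group
    rw [e]
    apply B.mul_mem hx'
    have := conj_mem_cj (g := x) hy'
    rwa [hB x hx] at this
  inv_mem' := by
    rintro x ⟨hx, hx'⟩
    refine ⟨N.inv_mem hx, ?_⟩
    have e : g * x⁻¹ * g⁻¹ * x⁻¹⁻¹ = x⁻¹ * (g * x * g⁻¹ * x⁻¹)⁻¹ * x⁻¹⁻¹ := by group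
    rw [e]
    have := conj_mem_cj (g := x⁻¹) (B.inv_mem hx')
    rwa [hB _ (N.inv_mem hx)] at this

theorem mem_cs {g : G} {N B : Subgroup G} {hB : ∀ x ∈ N, cj x B = B} {x : G} :
    x ∈ cs g N B hB ↔ x ∈ N ∧ g * x * g⁻¹ * x⁻¹ ∈ B := Iff.rfl

/-- extend `[g, A k] ≤ B` to the supremum of the `A k`. -/
theorem cs_iSup {κ : Sort*} {g : G} {N B : Subgroup G} (hB : ∀ x ∈ N, cj x B = B) {A : κ → Subgroup G}
    (hA : ∀ k, A k ≤ N) (h : ∀ k, ∀ x ∈ A k, g * x * g⁻¹ * x⁻¹ ∈ B) :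
    ∀ x ∈ ⨆ k, A k, g * x * g⁻¹ * x⁻¹ ∈ B := by
  have : (⨆ k, A k) ≤ cs g N B hB := iSup_le fun k x hx => ⟨hA k hx, h k x hx⟩
  exact fun x hx => (this hx).2

/-- `W = ⟨V^L⟩`. -/
def cl (L V : Subgroup G) : Subgroup G := ⨆ l : L, cj (l : G) V

theorem le_cl {L V : Subgroup G} {l : G} (hl : l ∈ L) : cj l V ≤ cl L V :=
  le_iSup (fun l : L => cj (l : G) V) ⟨l, hl⟩

theorem le_cl' {L V : Subgroup G} : V ≤ cl L V := by
  have := le_cl (V := V) L.one_mem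
  rwa [cj_one] at this

theorem cl_le {L V X : Subgroup G} (h : ∀ l ∈ L, cj l V ≤ X) : cl L V ≤ X :=
  iSup_le fun l => h l l.2

theorem cl_inv {L V : Subgroup G} : ∀ g ∈ L, cj g (cl L V) = cl L V := by
  have key : ∀ g ∈ L, cj g (cl L V) ≤ cl L V := by
    intro g hg
    unfold cl
    rw [cj_iSup]
    apply iSup_le
    intro l
    rw [cj_mul]
    exact le_cl (L.mul_mem hg l.2)
  intro g hg
  apply le_antisymm (key g hg)
  rw [le_cj_iff]
  exact key _ (L.inv_mem hg)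

theorem cl_cm {L V : Subgroup G} (h : ∀ l ∈ L, Cm V (cj l V)) : Cm (cl L V) (cl L V) := by
  unfold cl
  apply Cm.iSup_left
  intro l
  apply Cm.iSup_right
  intro l'
  rw [cm_cj_left, cj_mul]
  exact h _ (L.mul_mem (L.inv_mem l.2) l'.2)

namespace Loc

variable {p q : ℕ} [hp : Fact p.Prime] {S L Q V C M : Subgroup G}
variable (c : Loc p q S L Q V C M)
include c

/-- if `S` acts trivially on the `L`-section `A/B` so does `L`. -/
theorem tr_all {A B : Subgroup G} (hA : ∀ g ∈ L, cj g A = A) (hB : ∀ g ∈ L, cj g B = B)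
    (hS : ∀ s ∈ S, ∀ a ∈ A, s * a * s⁻¹ * a⁻¹ ∈ B) : ∀ g ∈ L, ∀ a ∈ A, g * a * g⁻¹ * a⁻¹ ∈ B := by
  obtain ⟨g₀, hg₀, hg₀M⟩ := c.ex
  have h1 : S ≤ tr L A B hB := fun s hs => ⟨c.SL hs, hS s hs⟩
  have h2 : cj g₀ S ≤ tr L A B hB := by
    have := cj_mono (g := g₀) h1
    rwa [tr_n hA g₀ hg₀] at this
  have h3 : L ≤ tr L A B hB := (c.gen g₀ hg₀ hg₀M).ge.trans (sup_le h1 h2)
  exact fun g hg => (h3 hg).2

/-- generation: something normalised by `S` and by `V'^g`. -/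
theorem norm_of {V' X : Subgroup G} {g : G} (hg : g ∈ L) (hgM : g ∉ M) (hS : V' ⊔ Q = S)
    (h1 : ∀ s ∈ S, cj s X = X) (h2 : ∀ b ∈ V', cj (g * b * g⁻¹) X = X) : ∀ l ∈ L, cj l X = X := by
  have h3 := c.gen g hg hgM
  rw [← h3]
  apply norm_sup h1
  rw [← hS, cj_sup, c.Qn g hg]
  apply norm_sup
  · intro k hk
    rw [mem_cj] at hk
    have := h2 _ hk
    have e : g * (g⁻¹ * k * g) * g⁻¹ = k := by group
    rwa [e] at this
  · intro k hk
    exact h1 k (c.QS hk)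

theorem SV₁ {q₁ : ℕ} {L₁ Q₁ V₁ C₁ M₁ : Subgroup G} (c₁ : Loc p q₁ S L₁ Q₁ V₁ C₁ M₁) :
    ∀ s ∈ S, cj s (V ⊔ V₁) = V ⊔ V₁ :=
  fun s hs => cj_sup_eq (c.Vn s (c.SL hs)) (c₁.Vn s (c₁.SL hs))

/-- `V V₁` is `L`-invariant at a dead end. -/
theorem dead_X {q₁ q' : ℕ} {L₁ Q₁ V₁ C₁ M₁ S' L' Q' V' C' M' : Subgroup G}
    (c₁ : Loc p q₁ S L₁ Q₁ V₁ C₁ M₁) (c' : Loc p q' S' L' Q' V' C' M') (h1 : V ≤ S') (h2 : V' ≤ S)
    (hnc : ¬ Cm V V') {E : Subgroup G} (hE : ∀ g ∈ L, cj g E = E) (hV₁E : V₁ ≤ E) (hES' : E ≤ S') :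
    ∀ g ∈ L, cj g (V ⊔ V₁) = V ⊔ V₁ := by
  haveI := c.finS
  haveI : Finite (V ⊔ V₁ : Subgroup G) := fin_le (sup_le c.VS c₁.VS)
  obtain ⟨g₀, hg₀, hg₀M⟩ := c.ex
  apply c.norm_of hg₀ hg₀M (c.crit_S c' h1 h2 hnc) (c.SV₁ c₁)
  intro b hb
  have hbL : g₀ * b * g₀⁻¹ ∈ L := L.mul_mem (L.mul_mem hg₀ (c.SL (h2 hb))) (L.inv_mem hg₀)
  apply cj_eq_of_le
  rw [cj_sup, c.Vn _ hbL]
  apply sup_le le_sup_left
  intro x hx
  rw [mem_cj] at hx
  set k := g₀ * b * g₀⁻¹ with hk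
  set v := k⁻¹ * x * k with hv
  have hxv : x = (k * v * k⁻¹ * v⁻¹) * v := by rw [hv]; group
  rw [hxv]
  apply mul_mem _ (mem_sup_right hx)
  apply mem_sup_left
  have e1 : k * v * k⁻¹ * v⁻¹ = g₀ * (b * (g₀⁻¹ * v * g₀) * b⁻¹ * (g₀⁻¹ * v * g₀)⁻¹) * g₀⁻¹ := by
    rw [hk]; group
  rw [e1]
  apply c.cjV_mem hg₀
  apply c.ZV
  apply c.VS_le
  rw [← c.crit_R c' h1 h2 hnc]
  have h3 : g₀⁻¹ * v * g₀ ∈ S' := by
    apply hES'
    rw [← mem_cj, hE g₀ hg₀]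
    exact hV₁E hx
  have : b * (g₀⁻¹ * v * g₀) * b⁻¹ * (g₀⁻¹ * v * g₀)⁻¹ = ⁅b, g₀⁻¹ * v * g₀⁆ := by
    rw [commutatorElement_def]
  rw [this]
  exact commutator_mem_commutator hb h3

/-- `Q ∩ Q₁ = C_Q(V V₁)`. -/
theorem D_eq {q₁ : ℕ} {L₁ Q₁ V₁ C₁ M₁ : Subgroup G} (c₁ : Loc p q₁ S L₁ Q₁ V₁ C₁ M₁) :
    Q ⊓ Q₁ = Q ⊓ centralizer ((V ⊔ V₁ : Subgroup G) : Set G) := by
  apply le_antisymm
  · apply le_inf inf_le_left
    rw [← cm_iff_le]
    exact (Cm.sup_left (c.VQc.mono le_rfl inf_le_left) (c₁.VQc.mono le_rfl inf_le_right)).symm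
  · apply le_inf inf_le_left
    rintro x ⟨hx, hx1⟩
    apply c₁.mem_Q (c.QS hx)
    intro y hy
    exact mem_centralizer_iff.mp hx1 y (mem_sup_right hy)

theorem D_inv {q₁ : ℕ} {L₁ Q₁ V₁ C₁ M₁ : Subgroup G} (c₁ : Loc p q₁ S L₁ Q₁ V₁ C₁ M₁)
    (hX : ∀ g ∈ L, cj g (V ⊔ V₁) = V ⊔ V₁) : ∀ g ∈ L, cj g (Q ⊓ Q₁) = Q ⊓ Q₁ := by
  intro g hg
  rw [c.D_eq c₁, cj_inf, c.Qn g hg, cj_centralizer, hX g hg]

/-- `L₁` does not normalise `V V₁`. -/
theorem notInv {q₁ : ℕ} {L₁ Q₁ V₁ C₁ M₁ V' : Subgroup G}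
    (c₁ : Loc p q₁ S L₁ Q₁ V₁ C₁ M₁) (h1' : Cm V₁ V') {l₁ : G} (hl₁ : l₁ ∈ L₁)
    (hl : Cm (cj l₁ V) V') (hnc : ¬ Cm V V') : ¬ ∀ g ∈ L₁, cj g (V ⊔ V₁) = V ⊔ V₁ := by
  intro h
  apply hnc
  have h1 := h l₁ hl₁
  rw [cj_sup, c₁.Vn l₁ hl₁] at h1
  have h2 : Cm (cj l₁ V ⊔ V₁) V' := hl.sup_left h1'
  rw [h1] at h2
  exact h2.mono le_sup_left le_rfl

/-- the large abelian subgroup `A'` with `V₁ ≤ A' ≤ Q₁`, `A' ≰ Q`. -/
theorem exists_A' {q₁ : ℕ} {L₁ Q₁ V₁ C₁ M₁ : Subgroup G} (c₁ : Loc p q₁ S L₁ Q₁ V₁ C₁ M₁)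
    (h01 : Cm V V₁) (hW : ∀ l ∈ L₁, Cm V (cj l V)) (hni : ¬ ∀ g ∈ L₁, cj g (V ⊔ V₁) = V ⊔ V₁) :
    ∃ A', LargeAb S A' ∧ V₁ ≤ A' ∧ A' ≤ Q₁ ∧ ¬ A' ≤ Q := by
  by_contra hcon
  push Not at hcon
  apply hni
  haveI := c.finS
  obtain ⟨A, hA, hAQ₁⟩ := c₁.big
  obtain ⟨hAS, hAV, hA'⟩ := c₁.large hA hAQ₁
  set A' := (A ⊓ Q₁) ⊔ V₁ with hA'd
  haveI : Finite A' := fin_le hA'.le
  have hA'Q₁ : A' ≤ Q₁ := sup_le inf_le_right c₁.VQ
  have hVQ₁ : V ≤ Q₁ := c₁.le_Q c.VS h01.symm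
  have hcomm : ∀ l ∈ L₁, Cm A' (cj l V) := by
    intro l hl
    rw [cm_cj_right]
    have hl' := L₁.inv_mem hl
    have h1 : cj l⁻¹ A' ≤ Q₁ := by
      have := cj_mono (g := l⁻¹) hA'Q₁
      rwa [c₁.Qn _ hl'] at this
    have h2 : LargeAb S (cj l⁻¹ A') := by
      apply LargeAb.of_card hA' (h1.trans c₁.QS)
      · have : Cm A' A' := hA'.comm
        exact this.cj l⁻¹
      · rw [card_cj]
    have h3 : V₁ ≤ cj l⁻¹ A' := by
      have := cj_mono (g := l⁻¹) (le_sup_right : V₁ ≤ A')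
      rwa [c₁.Vn _ hl'] at this
    exact (c.VQc.mono le_rfl (hcon _ h2 h3 h1)).symm
  set W := cl L₁ V with hWd
  have hWQ₁ : W ≤ Q₁ := by
    apply cl_le
    intro l hl
    have := cj_mono (g := l) hVQ₁
    rwa [c₁.Qn l hl] at this
  have hWc : Cm W W := cl_cm hW
  have hA'W : Cm A' W := by
    unfold W cl
    exact Cm.iSup_right fun l => hcomm l l.2
  have hWA' : W ≤ A' := LargeAb.le_of_comm' hA' (hWQ₁.trans c₁.QS) hWc hA'W
  have hV₁n : ∀ x ∈ W, cj x V₁ = V₁ := fun x hx => c₁.Vn x (c₁.QL (hWQ₁ hx))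
  have hS : ∀ s ∈ S, ∀ a ∈ W, s * a * s⁻¹ * a⁻¹ ∈ V₁ := by
    have hsub : S ≤ tr L₁ W V₁ c₁.Vn := by
      apply hAS.ge.trans
      apply sup_le
      · intro a ha
        refine ⟨c₁.SL (hA.le ha), ?_⟩
        intro w hw
        obtain ⟨b, hb, v, hv, rfl⟩ := Cm.mem_sup (c₁.VQc.symm.mono inf_le_right le_rfl) (hWA' hw)
        have e : a * (b * v) * a⁻¹ * (b * v)⁻¹ = b * (a * v * a⁻¹ * v⁻¹) * b⁻¹ := by
          have h1 : a * b = b * a := hA.comm a ha b hb.1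
          calc a * (b * v) * a⁻¹ * (b * v)⁻¹ = (a * b) * v * a⁻¹ * v⁻¹ * b⁻¹ := by group
            _ = (b * a) * v * a⁻¹ * v⁻¹ * b⁻¹ := by rw [h1]
            _ = _ := by group
        rw [e]
        have hbL : b ∈ L₁ := c₁.QL hb.2
        exact c₁.cjV_mem hbL (c₁.cm_mem_V (c₁.SL (hA.le ha)) hv)
      · intro x hx
        refine ⟨c₁.QL hx, ?_⟩
        apply cs_iSup (N := W) hV₁n (fun l => le_cl l.2)
        intro l y hy
        -- y = l v l⁻¹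
        rw [mem_cj] at hy
        have hl := l.2
        have hx' : (l : G)⁻¹ * x * l ∈ Q₁ := by
          rw [← mem_cj, c₁.Qn _ hl]
          exact hx
        have h1 := c.quad _ hy _ (c₁.QS hx')
        have e : x * y * x⁻¹ * y⁻¹ = l * (cm ((l : G)⁻¹ * y * l) ((l : G)⁻¹ * x * l)) * (l : G)⁻¹ := by
          unfold cm; group
        rw [e]
        exact c₁.cjV_mem hl (c₁.ZV h1)
    exact fun s hs => (hsub hs).2
  have hall := c₁.tr_all cl_inv c₁.Vn hS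
  intro g hg
  haveI : Finite (V ⊔ V₁ : Subgroup G) := fin_le (sup_le c.VS c₁.VS)
  apply cj_eq_of_le
  rw [cj_sup, c₁.Vn g hg]
  apply sup_le _ le_sup_right
  intro x hx
  rw [mem_cj] at hx
  have h1 := hall g hg _ (le_cl' hx)
  have e : x = (g * (g⁻¹ * x * g) * g⁻¹ * (g⁻¹ * x * g)⁻¹) * (g⁻¹ * x * g) := by group
  rw [e]
  exact mul_mem (mem_sup_right h1) (mem_sup_left hx)

/-- **Dead ends at distance at least two** (local part). -/
theorem dead2 {q₁ q' : ℕ} {L₁ Q₁ V₁ C₁ M₁ S' L' Q' V' C' M' : Subgroup G}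
    (c₁ : Loc p q₁ S L₁ Q₁ V₁ C₁ M₁) (c' : Loc p q' S' L' Q' V' C' M') (h2 : V' ≤ S)
    (hnc : ¬ Cm V V') (h01 : Cm V V₁) (h1' : Cm V₁ V') (hW : ∀ l ∈ L₁, Cm V (cj l V))
    (hR₁ : ⁅V, S⁆ ≤ C₁) (hX : ∀ g ∈ L, cj g (V ⊔ V₁) = V ⊔ V₁)
    (h5 : ∀ g ∈ L, ∀ l ∈ L₁, cj (g * l) V ≤ S') {l₁ : G} (hl₁ : l₁ ∈ L₁) (hl : Cm (cj l₁ V) V') :
    False := by
  haveI := c.finS
  have h1 : V ≤ S' := by
    have := h5 1 L.one_mem 1 L₁.one_mem
    rwa [mul_one, cj_one] at this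
  have hR := c.crit_R c' h1 h2 hnc
  have hS' : V ⊔ Q' = S' := (c.crit c' h1 h2 hnc).2.2.1
  have hS := c.crit_S c' h1 h2 hnc
  have hVQ₁ : V ≤ Q₁ := c₁.le_Q c.VS h01.symm
  have hV'Q₁ : V' ≤ Q₁ := c₁.le_Q h2 h1'
  set R := ⁅V, S⁆ with hRd
  set W := cl L₁ V with hWd
  have hRZ : R ≤ cen S := c.VS_le
  have hWQ₁ : W ≤ Q₁ := by
    apply cl_le
    intro l hl
    have := cj_mono (g := l) hVQ₁
    rwa [c₁.Qn l hl] at this
  have hWS : W ≤ S := hWQ₁.trans c₁.QS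
  have hWc : Cm W W := cl_cm hW
  have hVW : V ≤ W := le_cl'
  have hcen : ∀ z ∈ cen S, ∀ s ∈ S, s * z = z * s := fun z hz s hs => cen_comm hz hs
  have hcjR : ∀ x ∈ S, cj x R = R := by
    intro x hx
    apply cj_of_cm
    intro y hy
    exact hcen y (hRZ hy) x hx
  -- [Q₁, W] ≤ R
  have hQW : ∀ x ∈ Q₁, ∀ w ∈ W, x * w * x⁻¹ * w⁻¹ ∈ R := by
    intro x hx
    apply cs_iSup (N := W) (fun y hy => hcjR y (hWS hy)) (fun l => le_cl l.2)
    intro l y hy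
    rw [mem_cj] at hy
    have hl := l.2
    have hx' : (l : G)⁻¹ * x * l ∈ Q₁ := by
      rw [← mem_cj, c₁.Qn _ hl]
      exact hx
    have h1 : cm ((l : G)⁻¹ * y * l) ((l : G)⁻¹ * x * l) ∈ R := c.cm_mem_R hy (c₁.QS hx')
    have e : x * y * x⁻¹ * y⁻¹ = l * (cm ((l : G)⁻¹ * y * l) ((l : G)⁻¹ * x * l)) * (l : G)⁻¹ := by
      unfold cm; group
    rw [e]
    have := conj_mem_cj (g := (l : G)) h1
    rwa [c₁.cj_le_C hl hR₁] at this
  -- W^g ≤ S'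
  have hWg : ∀ g ∈ L, cj g W ≤ S' := by
    intro g hg
    rw [cj_le_iff]
    apply cl_le
    intro l hl
    rw [← cj_le_iff, cj_mul]
    exact h5 g hg l hl
  have hWS' : W ≤ S' := by
    have := hWg 1 L.one_mem
    rwa [cj_one] at this
  -- [V'^g, W] ≤ V
  have hVW' : ∀ g ∈ L, ∀ b ∈ V', ∀ w ∈ W,
      (g * b * g⁻¹) * w * (g * b * g⁻¹)⁻¹ * w⁻¹ ∈ V := by
    intro g hg b hb w hw
    have e1 : (g * b * g⁻¹) * w * (g * b * g⁻¹)⁻¹ * w⁻¹ =
        g * ⁅b, g⁻¹ * w * g⁆ * g⁻¹ := by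
      rw [commutatorElement_def]; group
    rw [e1]
    apply c.cjV_mem hg
    apply c.ZV
    apply hRZ
    rw [← hR]
    apply commutator_mem_commutator hb
    apply hWg _ (L.inv_mem hg)
    rw [mem_cj, inv_inv]
    have e : g * (g⁻¹ * w * g) * g⁻¹ = w := by group
    rwa [e]
  set D := Q ⊓ Q₁ with hD
  have hDn : ∀ g ∈ L, cj g D = D := c.D_inv c₁ hX
  -- Y = [D, W] ≤ C
  have hYC : ∀ d ∈ D, ∀ w ∈ W, d * w * d⁻¹ * w⁻¹ ∈ C := by
    set Y := ⁅D, W⁆ with hY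
    have hYR : Y ≤ R := by
      rw [hY, Subgroup.commutator_le]
      intro d hd w hw
      rw [commutatorElement_def]
      exact hQW d hd.2 w hw
    haveI : Finite Y := fin_le (hYR.trans (hRZ.trans c.ZS))
    have hYS : ∀ s ∈ S, cj s Y = Y := by
      intro s hs
      apply cj_of_cm
      intro y hy
      exact hcen y (hRZ (hYR hy)) s hs
    obtain ⟨g₀, hg₀, hg₀M⟩ := c.ex
    have hYn : ∀ g ∈ L, cj g Y = Y := by
      apply c.norm_of hg₀ hg₀M hS hYS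
      intro b hb
      set k := g₀ * b * g₀⁻¹ with hk
      have hkL : k ∈ L := L.mul_mem (L.mul_mem hg₀ (c.SL (h2 hb))) (L.inv_mem hg₀)
      apply cj_eq_of_le
      rw [cj_le_iff, hY, Subgroup.commutator_le]
      intro d hd w hw
      rw [mem_cj, inv_inv]
      have e1 : k * ⁅d, w⁆ * k⁻¹ = ⁅k * d * k⁻¹, (k * w * k⁻¹ * w⁻¹) * w⁆ := by
        rw [commutatorElement_def, commutatorElement_def]; group
      rw [e1]
      have hd' : k * d * k⁻¹ ∈ D := by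
        have := conj_mem_cj (g := k) hd
        rwa [hDn k hkL] at this
      have he := hVW' g₀ hg₀ b hb w hw
      set d' := k * d * k⁻¹ with hd'd
      set e := k * w * k⁻¹ * w⁻¹ with hed
      have h3 : d' * e = e * d' := (c.VQc e he d' hd'.1).symm
      have h4 : ⁅d', w⁆ ∈ Y := commutator_mem_commutator hd' hw
      have h5 : e * ⁅d', w⁆ = ⁅d', w⁆ * e := hcen _ (hRZ (hYR h4)) e (c.VS he)
      have e2 : ⁅d', e * w⁆ = ⁅d', w⁆ := by
        calc ⁅d', e * w⁆ = (d' * e) * w * d'⁻¹ * w⁻¹ * e⁻¹ := by rw [commutatorElement_def]; group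
          _ = (e * d') * w * d'⁻¹ * w⁻¹ * e⁻¹ := by rw [h3]
          _ = (e * ⁅d', w⁆) * e⁻¹ := by rw [commutatorElement_def]; group
          _ = ⁅d', w⁆ := by rw [h5]; group
      rw [e2]
      exact h4
    have hYC : Y ≤ C := c.le_C (hYR.trans hRZ) hYn
    intro d hd w hw
    have := hYC (commutator_mem_commutator hd hw)
    rwa [commutatorElement_def] at this
  -- T*
  have hB : ∀ g ∈ W, cj g (R ⊓ C) = R ⊓ C := by
    intro g hg
    apply cj_of_cm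
    intro y hy
    exact hcen y (hRZ hy.1) g (hWS hg)
  set T := tr W Q₁ (R ⊓ C) hB with hT
  have hTn : ∀ g ∈ L₁, cj g T = T := by
    intro g hg
    exact tr_cj (cl_inv g hg) (c₁.Qn g hg) (c₁.cj_le_C hg (inf_le_left.trans hR₁))
  have hZT : cen S ≤ T := by
    intro z hz
    refine ⟨hVW (c.ZV hz), fun y hy => ?_⟩
    have h3 : y * z = z * y := hcen z hz y (c₁.QS hy)
    rw [← h3]
    have : y * z * z⁻¹ * y⁻¹ = 1 := by group
    rw [this]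
    exact one_mem _
  have hdecomp : ∀ u ∈ W, ∃ v ∈ V, ∃ t ∈ T, v * t = u := by
    intro u hu
    have hu' := hWS' hu
    rw [← hS'] at hu'
    obtain ⟨v, hv, t, ht, rfl⟩ := mem_sup_of_norm (fun k hk => c'.Qn k (c'.SL (h1 hk))) hu'
    have htW : t ∈ W := by
      have e : t = v⁻¹ * (v * t) := by group
      rw [e]
      exact W.mul_mem (W.inv_mem (hVW hv)) hu
    refine ⟨v, hv, t, ⟨htW, ?_⟩, rfl⟩
    intro y hy
    have hyS := c₁.QS hy
    -- y = b t'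
    have hy2 := hyS
    rw [← hS] at hy2
    obtain ⟨b, hb, d, hd, rfl⟩ := mem_sup_of_norm (fun k hk => c.Qn k (c.SL (h2 hk))) hy2
    have hdQ₁ : d ∈ Q₁ := by
      have e : d = b⁻¹ * (b * d) := by group
      rw [e]
      exact Q₁.mul_mem (Q₁.inv_mem (hV'Q₁ hb)) hy
    have hdD : d ∈ D := ⟨hd, hdQ₁⟩
    -- [d, t] = [d, v t]
    have h3 : d * t * d⁻¹ * t⁻¹ ∈ C := hYC d hdD t htW
    have h3R : d * t * d⁻¹ * t⁻¹ ∈ R := hQW d hdQ₁ t htW
    have hbt : b * t = t * b := c'.VQc b hb t ht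
    set z := d * t * d⁻¹ * t⁻¹ with hz
    have hbz : b * z = z * b := hcen z (hRZ h3R) b (h2 hb)
    have e1 : t * (b * d) * t⁻¹ * (b * d)⁻¹ = z⁻¹ := by
      have h4 : d * t = z * t * d := by rw [hz]; group
      calc t * (b * d) * t⁻¹ * (b * d)⁻¹ = (t * b) * d * t⁻¹ * d⁻¹ * b⁻¹ := by group
        _ = (b * t) * d * t⁻¹ * d⁻¹ * b⁻¹ := by rw [hbt]
        _ = b * z⁻¹ * b⁻¹ := by rw [hz]; group
        _ = (z * b)⁻¹⁻¹ * z⁻¹ * z⁻¹ * b⁻¹ := by rw [inv_inv, ← hbz]; group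
        _ = z * (b * z⁻¹ * z⁻¹ * b⁻¹) := by group
        _ = z * ((z * (z * b))⁻¹⁻¹ * z⁻¹ * z⁻¹ * z⁻¹ * z⁻¹ * b⁻¹) := by
            rw [inv_inv, ← hbz, ← mul_assoc z b z, ← hbz]; group
        _ = z⁻¹ := by
            have h5 : b * z⁻¹ = z⁻¹ * b := by
              rw [eq_inv_mul_iff_mul_eq, ← mul_assoc, ← hbz]; group
            rw [inv_inv]
            calc z * (z * (z * b) * z⁻¹ * z⁻¹ * z⁻¹ * z⁻¹ * b⁻¹) =
                z * z * z * (b * z⁻¹) * z⁻¹ * z⁻¹ * z⁻¹ * b⁻¹ := by group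
              _ = z * z * z * (z⁻¹ * b) * z⁻¹ * z⁻¹ * z⁻¹ * b⁻¹ := by rw [h5]
              _ = z * z * (b * z⁻¹) * z⁻¹ * z⁻¹ * b⁻¹ := by group
              _ = z * z * (z⁻¹ * b) * z⁻¹ * z⁻¹ * b⁻¹ := by rw [h5]
              _ = z * (b * z⁻¹) * z⁻¹ * b⁻¹ := by group
              _ = z * (z⁻¹ * b) * z⁻¹ * b⁻¹ := by rw [h5]
              _ = (b * z⁻¹) * b⁻¹ := by group
              _ = (z⁻¹ * b) * b⁻¹ := by rw [h5]
              _ = z⁻¹ := by group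
    rw [e1]
    exact inv_mem ⟨h3R, h3⟩
  -- S acts trivially on W / T
  have hSW : ∀ s ∈ S, ∀ w ∈ W, s * w * s⁻¹ * w⁻¹ ∈ T := by
    intro s hs w hw
    obtain ⟨v, hv, t, ht, rfl⟩ := hdecomp w hw
    have e : s * (v * t) * s⁻¹ * (v * t)⁻¹ = (cm v s) * (v * (s * t * s⁻¹ * t⁻¹) * v⁻¹) := by
      unfold cm; group
    rw [e]
    have hsL := c₁.SL hs
    have h3 : s * t * s⁻¹ ∈ T := by
      have := conj_mem_cj (g := s) ht
      rwa [hTn s hsL] at this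
    have h4 : v * (s * t * s⁻¹ * t⁻¹) * v⁻¹ ∈ T := by
      have := conj_mem_cj (g := v) (T.mul_mem h3 (T.inv_mem ht))
      rwa [hTn v (c₁.QL (hVQ₁ hv))] at this
    exact T.mul_mem (hZT (c.quad v hv s hs)) h4
  have hall := c₁.tr_all cl_inv hTn hSW
  -- conclusion
  obtain ⟨v, hv, hvZ⟩ := c.ZneV
  apply hvZ
  have hV'Q : ¬ V' ≤ Q := fun h => hnc (c.VQc.mono le_rfl h)
  obtain ⟨b, hb, hbQ⟩ := SetLike.not_le_iff_exists.mp hV'Q
  apply c.cmc b (h2 hb) hbQ v hv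
  have hx := hall l₁ hl₁ v (hVW hv)
  set x := l₁ * v * l₁⁻¹ * v⁻¹ with hxd
  have h3 := hx.2 b (hV'Q₁ hb)
  have h4 : (x * v) * b = b * (x * v) := by
    have e : x * v = l₁ * v * l₁⁻¹ := by rw [hxd]; group
    rw [e]
    exact hl _ (conj_mem_cj hv) b hb
  set z := x * b * x⁻¹ * b⁻¹ with hz
  have h5 : cm v b = z := by
    have h6 : x * cm v b = cm v b * x := hcen _ (c.quad v hv b (h2 hb)) x (hWS hx.1)
    have e : z = x * (cm v b) * x⁻¹ := by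
      have h7 : b * x = x * (v * b * v⁻¹ * b⁻¹) * b * x⁻¹ * x := by
        calc b * x = b * (x * v) * v⁻¹ := by group
          _ = (x * v) * b * v⁻¹ := by rw [← h4]
          _ = _ := by group
      have h8 : x⁻¹ * b⁻¹ = (b * x)⁻¹ := by group
      calc z = x * b * (x⁻¹ * b⁻¹) := by rw [hz]; group
        _ = x * b * (x * (v * b * v⁻¹ * b⁻¹) * b * x⁻¹ * x)⁻¹ := by rw [h8, h7]
        _ = x * (cm v b) * x⁻¹ := by unfold cm; group
    rw [e, h6]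
    group
  rw [h5]
  exact h3.2

/-- **Step A**: everything of the form `V^{gl}` commutes with `V_ρ`. -/
theorem stepA {q₁ qr : ℕ} {L₁ Q₁ V₁ C₁ M₁ Sr Lr Qr Vr Cr Mr : Subgroup G}
    (c₁ : Loc p q₁ S L₁ Q₁ V₁ C₁ M₁) (cr : Loc p qr Sr Lr Qr Vr Cr Mr)
    (h01 : Cm V V₁) (hW : ∀ l ∈ L₁, Cm V (cj l V))
    (hR₁ : ⁅V, S⁆ ≤ C₁) (hX : ∀ g ∈ L, cj g (V ⊔ V₁) = V ⊔ V₁)
    (hni : ¬ ∀ g ∈ L₁, cj g (V ⊔ V₁) = V ⊔ V₁) (hXr : Cm (V ⊔ V₁) Vr)
    (hY : ∀ g ∈ L, ∀ l ∈ L₁, cj (g * l) V ≤ Sr) (hr : ∀ g ∈ L, ∀ l ∈ L₁, Vr ≤ cj (g * l) S)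
    (hRr : ∀ g ∈ L, ∀ l ∈ L₁, ¬ Cm (cj (g * l) V) Vr → cj g ⁅V, S⁆ = ⁅V, S⁆) :
    ∀ g ∈ L, ∀ l ∈ L₁, Cm (cj (g * l) V) Vr := by
  intro g hg l hl
  by_contra hnc
  haveI := c.finS
  obtain ⟨A, hA, hV₁A, hAQ₁, hAQ⟩ := c.exists_A' c₁ h01 hW hni
  obtain ⟨hAS, hAV, hA'⟩ := c.large hA hAQ
  obtain ⟨a, ha, haQ⟩ := SetLike.not_le_iff_exists.mp hAQ
  obtain ⟨h, hh, hhM⟩ := c.ex
  have haS := hA.le ha
  have haL := c.SL haS
  have hah : a * h ∈ L := L.mul_mem haL hh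
  have m1 : h⁻¹ * (a * h) ∉ M := by
    have := c.ti h hh hhM a haS haQ
    rwa [mul_assoc] at this
  set R := ⁅V, S⁆ with hR
  have hcjgR := hRr g hg l hl hnc
  set D := Q ⊓ Q₁ with hD
  have hDn : ∀ g ∈ L, cj g D = D := c.D_inv c₁ hX
  set B := A ⊓ Q with hB
  have hBD : B ≤ D := le_inf inf_le_right (inf_le_left.trans hAQ₁)
  have hV₁Q : V₁ ≤ Q := c.le_Q c₁.VS h01
  have hV₁B : V₁ ≤ B := le_inf hV₁A hV₁Q
  have hBX : B ⊔ (V ⊔ V₁) = B ⊔ V := by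
    apply le_antisymm
    · exact sup_le le_sup_left (sup_le le_sup_right (hV₁B.trans le_sup_left))
    · exact sup_le_sup_left le_sup_left _
  -- W ≤ D
  have hVlD : ∀ l ∈ L₁, cj l V ≤ D := by
    intro l hl
    have hVQ₁ : V ≤ Q₁ := c₁.le_Q c.VS h01.symm
    have h1 : cj l V ≤ Q₁ := by
      have := cj_mono (g := l) hVQ₁
      rwa [c₁.Qn l hl] at this
    exact le_inf (c.le_Q (h1.trans c₁.QS) (hW l hl)) h1
  have hVglD : ∀ g ∈ L, ∀ l ∈ L₁, cj (g * l) V ≤ D := by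
    intro g hg l hl
    have := cj_mono (g := g) (hVlD l hl)
    rwa [cj_mul, hDn g hg] at this
  have hDS : ∀ g ∈ L, ∀ l ∈ L₁, D ≤ cj (g * l) S := by
    intro g hg l hl
    have h1 : D ≤ cj l S := inf_le_right.trans (c₁.Q_le_cjS hl)
    have := cj_mono (g := g) h1
    rwa [cj_mul, hDn g hg] at this
  have hcjR : ∀ g ∈ L, ∀ l ∈ L₁, cj (g * l) R = cj g R := by
    intro g hg l hl
    rw [← cj_mul, c₁.cj_le_C hl hR₁]
  have hRZ : R ≤ cen S := c.VS_le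
  have hZle : ∀ g ∈ L, ∀ l ∈ L₁, cj (g * l) (cen S) ≤ V ⊔ V₁ := by
    intro g hg l hl
    have h1 : cj l (cen S) ≤ V ⊔ V₁ := (c₁.cjZV hl).trans le_sup_right
    have := cj_mono (g := g) h1
    rwa [cj_mul, hX g hg] at this
  -- contradiction with `R ≤ C`
  have hend : ¬ cj h R ≤ cj (a * h) (cen S) := by
    intro h1
    apply c.R_not_le_C
    have h2 : cj h R ≤ C := by
      intro x hx
      exact c.two hh hah m1 (cj_mono hRZ hx) (h1 hx)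
    have := cj_mono (g := h⁻¹) h2
    rwa [cj_inv_cj, c.Cn _ (L.inv_mem hh)] at this
  have e1 : h * (g * l) = (h * g) * l := by group
  have e2 : a * h * (g * l) = (a * h * g) * l := by group
  have hhg : h * g ∈ L := L.mul_mem hh hg
  have hahg : a * h * g ∈ L := L.mul_mem hah hg
  have r1 : cj ((h * g) * l) R = cj h R := by
    rw [hcjR _ hhg l hl, ← cj_mul, hcjgR]
  have r2 : cj ((a * h * g) * l) R = cj (a * h) R := by
    rw [hcjR _ hahg l hl, ← cj_mul, hcjgR]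
  set U := cj ((h * g) * l) V with hU
  have hUa : cj a U = cj ((a * h * g) * l) V := by
    rw [hU, cj_mul]
    congr 1
    group
  have hUD : U ≤ D := hVglD _ hhg l hl
  have hUaD : cj a U ≤ D := by rw [hUa]; exact hVglD _ hahg l hl
  have hDSS : D ≤ S := inf_le_left.trans c.QS
  by_cases hUU : Cm U (cj a U)
  swap
  · rw [hUa] at hUU
    have h3 := (c.cj' ((h * g) * l)).crit_R (c.cj' ((a * h * g) * l))
      (hUD.trans (hDS _ hahg l hl)) ((hVglD _ hahg l hl).trans (hDS _ hhg l hl)) hUU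
    rw [c.cj_comm', c.cj_comm'] at h3
    rw [r1, r2] at h3
    apply hend
    rw [← h3]
    exact cj_mono hRZ
  -- commutation of W1, W2
  have hgen : ∀ k ∈ L, k ∉ M → Cm (cj ((k * g) * l) V) Vr := by
    intro k hk hkM
    by_contra hnc2
    have h3 := hRr _ (L.mul_mem hk hg) l hl hnc2
    rw [← cj_mul, hcjgR] at h3
    exact c.R_not_le hk hkM (by rw [h3]; exact hRZ)
  have m2 : (a * h)⁻¹ * h ∉ M := by
    intro h'
    apply m1
    have := M.inv_mem h'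
    have e : ((a * h)⁻¹ * h)⁻¹ = h⁻¹ * (a * h) := by group
    rwa [e] at this
  have hmemZ : ∀ k : G, ∀ u ∈ cj (k * (g * l)) V, (∀ w ∈ cj k Vr, w * u = u * w) →
      u ∈ cj (k * (g * l)) (cen S) := by
    intro k u hu hw
    rw [← cj_mul] at hu ⊢
    rw [mem_cj] at hu ⊢
    rw [cj_cen]
    apply (c.cj' (g * l)).crit_mem cr (hY g hg l hl) (hr g hg l hl) hnc hu
    intro y hy
    have h4 := hw _ (conj_mem_cj (g := k) hy)
    calc y * (k⁻¹ * u * k) = k⁻¹ * (k * y * k⁻¹ * u) * k := by group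
      _ = k⁻¹ * (u * (k * y * k⁻¹)) * k := by rw [h4]
      _ = _ := by group
  have hXrk : ∀ k ∈ L, Cm (cj k Vr) (V ⊔ V₁) := by
    intro k hk
    have := hXr.symm.cj k
    rwa [hX k hk] at this
  have hBS' : B ≤ cj ((h * g) * l) S := hBD.trans (hDS _ hhg l hl)
  have hBS'' : B ≤ cj ((a * h * g) * l) S := hBD.trans (hDS _ hahg l hl)
  have hcentU : B ⊓ centralizer (U : Set G) = B ⊓ cj ((h * g) * l) Q := (c.cj' ((h * g) * l)).centU hBS'
  have hUX : Cm U (V ⊔ V₁) := by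
    have h3 : Cm D (V ⊔ V₁) := by
      rw [hD, c.D_eq c₁, cm_iff_le]
      exact inf_le_right
    exact h3.mono hUD le_rfl
  have hAX : LargeAb S (B ⊔ (V ⊔ V₁)) := by rw [hBX]; exact hA'
  obtain ⟨j1, j2⟩ := lemmaJ (W1 := cj h Vr) (W2 := cj (a * h) Vr) (q := q) (X := V ⊔ V₁) (U := U) hA.comm
    (inf_le_left : B ≤ A) ha hAX (hX a haL) (hUD.trans hDSS) (hUaD.trans hDSS)
    (c.Vab.cj _) hUU hUX
    (by
      rw [hUa, cm_cj_left, cj_mul]
      have e : h⁻¹ * (a * h * g * l) = (h⁻¹ * (a * h)) * g * l := by group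
      rw [e]
      exact (hgen _ (L.mul_mem (L.inv_mem hh) hah) m1).symm)
    (hXrk h hh)
    (by
      intro u hu hw
      rw [hU, ← e1] at hu
      have := hmemZ h u hu hw
      rw [e1] at this
      exact hZle _ hhg l hl this)
    (by
      rw [hU, cm_cj_left, cj_mul]
      have e : (a * h)⁻¹ * (h * g * l) = ((a * h)⁻¹ * h) * g * l := by group
      rw [e]
      exact (hgen _ (L.mul_mem (L.inv_mem hah) hh) m2).symm)
    (hXrk _ hah)
    (by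
      intro u hu hw
      rw [hUa, ← e2] at hu
      have := hmemZ (a * h) u hu hw
      rw [e2] at this
      exact hZle _ hahg l hl this)
    (by
      have h3 : U ⊓ (V ⊔ V₁) = cj ((h * g) * l) (cen S) := by
        apply le_antisymm
        · rintro x ⟨hx, hxX⟩
          rw [hU, ← e1] at hx
          have := hmemZ h x hx (fun w hw => hXrk h hh w hw x hxX)
          rwa [e1] at this
        · apply le_inf (cj_mono c.ZV) (hZle _ hhg l hl)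
      rw [h3, card_cj, card_cj, c.cardV])
    (by
      rw [hcentU]
      exact ((c.cj' ((h * g) * l)).card_le_q' hBS').1)
  rw [hcentU] at j1
  have hBQ : B ⊔ cj ((h * g) * l) Q = cj ((h * g) * l) S :=
    ((c.cj' ((h * g) * l)).card_le_q' hBS').2 (le_of_eq j1.symm)
  apply hend
  rw [← r1, hR, cj_comm, Subgroup.commutator_le]
  intro u hu s hs
  rw [← hBQ] at hs
  obtain ⟨b, hb, t, ht, rfl⟩ := mem_sup_of_norm
    (fun k hk => (c.cj' ((h * g) * l)).Qn k ((c.cj' ((h * g) * l)).SL (hBS' hk))) hs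
  have e3 : ⁅u, b * t⁆ = ⁅u, b⁆ := by
    rw [commutatorElement_def, commutatorElement_def]
    have h3 : t * u⁻¹ = u⁻¹ * t := ((c.cj' ((h * g) * l)).VQc _ (inv_mem hu) t ht).symm
    calc u * (b * t) * u⁻¹ * (b * t)⁻¹ = u * b * (t * u⁻¹) * t⁻¹ * b⁻¹ := by group
      _ = u * b * u⁻¹ * b⁻¹ := by rw [h3]; group
  rw [e3]
  obtain ⟨u', hu', e, he, hx⟩ := j2 u hu
  rw [hUa] at hu'
  have hbx : (u * u' * e) * b = b * (u * u' * e) := hAX.comm _ hx b (mem_sup_left hb)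
  have heb : e * b = b * e := by
    have h3 : Cm D (V ⊔ V₁) := by
      rw [hD, c.D_eq c₁, cm_iff_le]
      exact inf_le_right
    exact (h3 b (hBD hb) e he).symm
  have hd' : u' * b * u'⁻¹ * b⁻¹ ∈ cj ((a * h * g) * l) R := by
    rw [hR, cj_comm, ← commutatorElement_def]
    exact commutator_mem_commutator hu' (hBS'' hb)
  have hd'' : u' * b * u'⁻¹ * b⁻¹ ∈ cj (a * h) (cen S) := by
    rw [r2] at hd'
    exact cj_mono hRZ hd'
  have h6 : u * b * u⁻¹ * b⁻¹ = (u' * b * u'⁻¹ * b⁻¹)⁻¹ := by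
    set d := u' * b * u'⁻¹ * b⁻¹ with hdd
    have h7 : u * d = d * u := by
      apply hUX u hu d
      exact hZle _ hahg l hl (cj_mono hRZ hd')
    have h8 : u' * b = d * b * u' := by rw [hdd]; group
    have h9 : u * u' * b = b * u * u' := by
      have h10 : (u * u' * b) * e = (b * u * u') * e := by
        calc (u * u' * b) * e = (u * u') * (b * e) := by group
          _ = (u * u') * (e * b) := by rw [heb]
          _ = (u * u' * e) * b := by group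
          _ = b * (u * u' * e) := hbx
          _ = (b * u * u') * e := by group
      exact mul_right_cancel h10
    have h11 : d * (u * b) * u' = (b * u) * u' := by
      calc d * (u * b) * u' = (d * u) * b * u' := by group
        _ = (u * d) * b * u' := by rw [h7]
        _ = u * (d * b * u') := by group
        _ = u * (u' * b) := by rw [h8]
        _ = u * u' * b := by group
        _ = (b * u) * u' := h9
    have h12 : d * (u * b) = b * u := mul_right_cancel h11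
    calc u * b * u⁻¹ * b⁻¹ = d⁻¹ * (d * (u * b)) * u⁻¹ * b⁻¹ := by group
      _ = d⁻¹ * (b * u) * u⁻¹ * b⁻¹ := by rw [h12]
      _ = d⁻¹ := by group
  rw [commutatorElement_def, h6]
  exact inv_mem hd''

end Loc

end Cfsg.Agent.H260.GN
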