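import Cfsg.Agent.H260.GN4

/-!
# Glauberman-Niles, part 5: tracks; live ends at distance at least two
-/

set_option autoImplicit false
set_option linter.unusedSectionVars false
set_option linter.unusedVariables false
set_option linter.style.haveILetI false

namespace Cfsg.Agent.H260.GN

open Subgroup Push
open scoped commutatorElement

variable {G : Type*} [Group G] {ι : Type*}

theorem exists_path {L : ι → Subgroup G} (n : ℕ) : ∀ w ∈ Wd L n, ∀ i j : ι, ∃ (h : ℕ → G) (τ : ℕ → ι),
    h 0 = 1 ∧ h n = w ∧ τ 0 = i ∧ τ (n + 1) = j ∧ ∀ k < n, (h k)⁻¹ * h (k + 1) ∈ L (τ (k + 1)) := by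
  induction n with
  | zero =>
    intro w hw i j
    refine ⟨fun _ => 1, fun k => if k = 0 then i else j, rfl, (wd_zero.mp hw).symm, by simp, by simp, ?_⟩
    intro k hk
    omega
  | succ n ih =>
    intro w hw i j
    obtain ⟨w', hw', k₀, l, hl, rfl⟩ := wd_succ_right hw
    obtain ⟨h, τ, h1, h2, h3, h4, h5⟩ := ih w' hw' i k₀
    refine ⟨fun k => if k ≤ n then h k else w' * l, fun k => if k ≤ n + 1 then τ k else j, ?_, ?_, ?_, ?_, ?_⟩
    · simp [h1]
    · simp
    · simp [h3]
    · simp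
    · intro k hk
      rcases Nat.lt_or_ge k n with h6 | h6
      · have e1 : k ≤ n := by omega
        have e2 : k + 1 ≤ n := by omega
        have e3 : k + 1 ≤ n + 1 := by omega
        simp only [e1, e2, e3, if_true]
        exact h5 k h6
      · have e1 : k = n := by omega
        subst e1
        have e2 : ¬ k + 1 ≤ k := by omega
        simp only [le_refl, if_true, e2, if_false, h2, h4]
        have : w'⁻¹ * (w' * l) = l := by group
        rw [this]
        exact hl

/-- a track of critical pairs at distance `n`. -/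
structure Track (L V M : ι → Subgroup G) (n N : ℕ) (h : ℕ → G) (τ : ℕ → ι) : Prop where
  step : ∀ k < n + N, (h k)⁻¹ * h (k + 1) ∈ L (τ (k + 1))
  move : ∀ k, n ≤ k → k < n + N → (h k)⁻¹ * h (k + 1) ∉ M (τ (k + 1))
  nc : ∀ k ≤ N, ¬ Cm (cj (h k) (V (τ k))) (cj (h (k + n)) (V (τ (k + n + 1))))

theorem Track.word {L V M : ι → Subgroup G} {n N : ℕ} {h : ℕ → G} {τ : ℕ → ι} (T : Track L V M n N h τ)
    (k d : ℕ) (hkd : k + d ≤ n + N) : (h k)⁻¹ * h (k + d) ∈ Wd L d := by
  induction d with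
  | zero => rw [wd_zero]; simp
  | succ d ih =>
    have h1 := T.step (k + d) (by omega)
    have := wd_snoc (ih (by omega)) h1
    have e : (h k)⁻¹ * h (k + d) * ((h (k + d))⁻¹ * h (k + d + 1)) = (h k)⁻¹ * h (k + (d + 1)) := by
      rw [← add_assoc]; group
    rwa [e] at this

section fam

variable {p : ℕ} [hp : Fact p.Prime] {S : Subgroup G} {q : ι → ℕ} {L Q V C M : ι → Subgroup G}
variable (loc : ∀ i, Loc p (q i) S (L i) (Q i) (V i) (C i) (M i))
include loc

theorem nc_cj {x y : G} {A B : Subgroup G} : Cm (cj x A) (cj y B) ↔ Cm A (cj (x⁻¹ * y) B) := by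
  rw [cm_cj_left, cj_mul]

/-- the extension lemma in words. -/
theorem ext_words {m : ℕ} (h : CommN L V m) {x y : G} {i j : ι}
    (hxy : x⁻¹ * y ∈ Wd L (m + 1)) (hnc : ¬ Cm (cj x (V i)) (cj y (V j))) {l₀ : G}
    (hl₀ : l₀ ∈ L j) (hl₀M : l₀ ∉ M j) {E : Subgroup G} (hVE : V j ≤ E) (hES : ∀ s ∈ S, cj s E = E)
    (hE : cj l₀ E ≤ cj (y⁻¹ * x) S) : ∀ g ∈ L j, cj g E = E := by
  apply (loc j).extend ((loc i).cj' (y⁻¹ * x)) _ _ _ hl₀ hl₀M hVE hES hE
  · have := inS loc h (x := y⁻¹ * x) (y := 1) (by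
      have e : (y⁻¹ * x)⁻¹ * 1 = x⁻¹ * y := by group
      rwa [e]) j
    rwa [cj_one] at this
  · have := inS loc h (x := 1) (y := y⁻¹ * x) (by
      have e : (1 : G)⁻¹ * (y⁻¹ * x) = y⁻¹ * x := by group
      rw [e]
      exact wd_symm hxy) i
    rwa [cj_one] at this
  · intro h'
    apply hnc
    rw [nc_cj loc] at *
    have := h'.symm.cj (x⁻¹ * y)
    rw [cj_mul] at this
    have e : x⁻¹ * y * (y⁻¹ * x) = 1 := by group
    rwa [e, cj_one] at this

theorem le_of_cm {m : ℕ} (h : CommN L V m) {x u y : G} {k j₀ j : ι} (hxu : x⁻¹ * u ∈ L k)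
    (huy : u⁻¹ * y ∈ Wd L m) {l₀ : G} (hl₀ : l₀ ∈ L j)
    (hcm : Cm (cj u (V k)) (cj (y * l₀) (V j₀))) : cj l₀ (V j₀) ≤ cj (y⁻¹ * x) S := by
  have h1 : cj (y * l₀) (V j₀) ≤ cj u S := by
    apply inS loc h
    rw [← mul_assoc]
    exact wd_snoc huy hl₀
  have h2 := le_cjQ loc h1 hcm
  rw [cjQ_eq loc hxu] at h2
  have h3 := h2.trans (cj_mono (g := x) (loc k).QS)
  rw [← cj_mul, cj_le_iff, cj_mul] at h3
  exact h3

theorem reverse_nc {x y : G} {i j : ι} (hnc : ¬ Cm (cj x (V i)) (cj y (V j))) :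
    ¬ Cm (V j) (cj (y⁻¹ * x) (V i)) := by
  intro h
  apply hnc
  rw [← nc_cj loc] at h
  exact h.symm

/-- extending a track by one step. -/
theorem Track.succ {m N : ℕ} (hc : CommN L V m)
    (hlive : ∀ w ∈ Wd L (m + 1), ∀ i j, ¬ Cm (V i) (cj w (V j)) →
      ¬ ∀ g ∈ L i, cj g (⨆ k, V k) = ⨆ k, V k)
    {h : ℕ → G} {τ : ℕ → ι} (T : Track L V M (m + 1) N h τ) :
    ∃ h' τ', Track L V M (m + 1) (N + 1) h' τ' := by
  set x := h N with hx
  set u := h (N + 1) with hu
  set y := h (N + (m + 1)) with hy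
  set j := τ (N + (m + 1) + 1) with hj
  have hnc := T.nc N le_rfl
  have hxu : x⁻¹ * u ∈ L (τ (N + 1)) := T.step N (by omega)
  have huy : u⁻¹ * y ∈ Wd L m := by
    have := T.word (N + 1) m (by omega)
    have e : N + 1 + m = N + (m + 1) := by omega
    rwa [e] at this
  have hxy : x⁻¹ * y ∈ Wd L (m + 1) := T.word N (m + 1) (by omega)
  obtain ⟨l₀, hl₀, hl₀M⟩ := (loc j).ex
  obtain ⟨j₀, hj₀⟩ : ∃ j₀, ¬ Cm (cj u (V (τ (N + 1)))) (cj (y * l₀) (V j₀)) := by
    by_contra hcon
    push Not at hcon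
    apply hlive _ (wd_symm hxy) _ _ (reverse_nc loc hnc)
    apply ext_words loc hc hxy hnc hl₀ hl₀M (le_iSup V j) (S_inv_sup loc _ rfl)
    rw [cj_iSup]
    exact iSup_le fun k => le_of_cm loc hc hxu huy hl₀ (hcon k)
  have e1 : ∀ k, k ≤ N + (m + 1) → Function.update h (N + (m + 1) + 1) (y * l₀) k = h k := by
    intro k hk
    apply Function.update_of_ne
    omega
  have e2 : ∀ k, k ≤ N + (m + 1) + 1 → Function.update τ (N + (m + 1) + 2) j₀ k = τ k := by
    intro k hk
    apply Function.update_of_ne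
    omega
  refine ⟨Function.update h (N + (m + 1) + 1) (y * l₀), Function.update τ (N + (m + 1) + 2) j₀, ?_, ?_, ?_⟩
  · intro k hk
    rcases Nat.lt_or_ge k (N + (m + 1)) with h1 | h1
    · rw [e1 k (by omega), e1 (k + 1) (by omega), e2 (k + 1) (by omega)]
      exact T.step k (by omega)
    · have : k = N + (m + 1) := by omega
      subst this
      rw [e1 _ le_rfl, Function.update_self, e2 _ le_rfl, ← hy, ← mul_assoc, inv_mul_cancel, one_mul]
      exact hl₀
  · intro k hk1 hk
    rcases Nat.lt_or_ge k (N + (m + 1)) with h1 | h1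
    · rw [e1 k (by omega), e1 (k + 1) (by omega), e2 (k + 1) (by omega)]
      exact T.move k hk1 (by omega)
    · have : k = N + (m + 1) := by omega
      subst this
      rw [e1 _ le_rfl, Function.update_self, e2 _ le_rfl, ← hy, ← mul_assoc, inv_mul_cancel, one_mul]
      exact hl₀M
  · intro k hk
    rcases Nat.lt_or_ge k (N + 1) with h1 | h1
    · rw [e1 k (by omega), e2 k (by omega), e1 (k + (m + 1)) (by omega), e2 (k + (m + 1) + 1) (by omega)]
      exact T.nc k (by omega)
    · have : k = N + 1 := by omega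
      subst this
      rw [e1 _ (by omega), e2 _ (by omega)]
      have e3 : N + 1 + (m + 1) = N + (m + 1) + 1 := by omega
      rw [e3, Function.update_self, Function.update_self]
      exact hj₀

theorem exists_track {m : ℕ} (hc : CommN L V m)
    (hlive : ∀ w ∈ Wd L (m + 1), ∀ i j, ¬ Cm (V i) (cj w (V j)) →
      ¬ ∀ g ∈ L i, cj g (⨆ k, V k) = ⨆ k, V k)
    {w : G} (hw : w ∈ Wd L (m + 1)) {i j : ι} (hnc : ¬ Cm (V i) (cj w (V j))) (N : ℕ) :
    ∃ h τ, Track L V M (m + 1) N h τ := by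
  induction N with
  | zero =>
    obtain ⟨h, τ, h0, h1, h2, h3, h4⟩ := exists_path (m + 1) w hw i j
    refine ⟨h, τ, ?_, ?_, ?_⟩
    · intro k hk
      exact h4 k (by omega)
    · intro k hk1 hk2
      omega
    · intro k hk
      have : k = 0 := by omega
      subst this
      rw [zero_add, h0, h1, h2, h3, cj_one]
      exact hnc
  | succ N ih =>
    obtain ⟨h, τ, T⟩ := ih
    exact Track.succ loc hc hlive T

/-- **Live ends at distance at least two**: contradiction. -/
theorem live_false {m : ℕ} (hm : 1 ≤ m) (hc : CommN L V m) {h : ℕ → G} {τ : ℕ → ι}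
    (T : Track L V M (m + 1) (m + 3) h τ) : False := by
  set n := m + 1 with hn
  -- words
  have hw : ∀ k d, k + d ≤ n + (m + 3) → (h k)⁻¹ * h (k + d) ∈ Wd L d := T.word
  -- criticality
  have hcr : ∀ k ≤ m + 3, cj (h (k + n)) ⁅V (τ (k + n + 1)), S⁆ = cj (h k) ⁅V (τ k), S⁆ := by
    intro k hk
    exact crit_R' loc hc (hw k n (by omega)) (T.nc k hk)
  have hM : ∀ k ≤ m + 3, ⁅V (τ k), S⁆ ≤ C (τ (k + 1)) := by
    intro k hk
    apply lemmaM' loc hc (T.step k (by omega)) _ (T.nc k hk)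
    have := hw (k + 1) m (by omega)
    have e : k + 1 + m = k + n := by omega
    rwa [e] at this
  set D := cj (h n) ⁅V (τ n), S⁆ with hD
  have s1 := T.step n (by omega)
  have s2 := T.step (n + 1) (by omega)
  have mv1 := T.move n le_rfl (by omega)
  have mv2 := T.move (n + 1) (by omega) (by omega)
  have hR1 := hM n (by omega)
  -- D ≤ Z_{h (n+1)}
  have hD1 : D = cj (h (n + 1)) ⁅V (τ n), S⁆ := (cjC_eq loc s1 hR1).symm
  have hDZ1 : D ≤ cj (h (n + 1)) (cen S) := by
    rw [hD1]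
    exact cj_mono (loc (τ n)).VS_le
  -- S_{h (n+2)} centralises D
  have hcrS := ((loc (τ (n + 2))).cj' (h (n + 2))).crit_S ((loc (τ (n + 2 + n + 1))).cj' (h (n + 2 + n)))
    (inS loc hc (wd_symm (hw (n + 2) n (by omega))) _) (inS loc hc (hw (n + 2) n (by omega)) _)
    (T.nc (n + 2) (by omega))
  have hDcomm : Cm (cj (h (n + 2)) S) D := by
    rw [← hcrS]
    apply Cm.sup_left
    · have h1 : cj (h (n + 2 + n)) (V (τ (n + 2 + n + 1))) ≤ cj (h (n + n)) S := by
        apply inS loc hc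
        have := hw (n + n) 2 (by omega)
        have e : n + n + 2 = n + 2 + n := by omega
        rw [e] at this
        exact wd_le (τ 0) (by omega) this
      have h2 : D ≤ cen (cj (h (n + n)) S) := by
        rw [hD, ← hcr n (by omega), ← cj_cen]
        exact cj_mono (loc _).VS_le
      intro x hx y hy
      exact cen_comm (h2 hy) (h1 hx)
    · rw [cjQ_eq loc s2]
      intro x hx y hy
      have h1 := hDZ1 hy
      rw [cj_cen] at h1
      exact cen_comm h1 (cj_mono (loc _).QS hx)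
  have hDZ2 : D ≤ cj (h (n + 2)) (cen S) := by
    rw [cj_cen]
    intro x hx
    refine ⟨?_, mem_centralizer_iff.mpr fun y hy => hDcomm y hy x hx⟩
    have h1 : D ≤ cj (h (n + 1)) (V (τ (n + 2))) := hDZ1.trans (cj_mono (loc _).ZV)
    rw [← cjV_eq loc s2] at h1
    exact cj_mono (loc _).VS (h1 hx)
  have hDC : D ≤ cj (h (n + 1)) (C (τ (n + 2))) := by
    intro x hx
    rw [mem_cj]
    apply (loc (τ (n + 2))).two' s2 mv2
    · rw [← mem_cj]
      exact hDZ1 hx
    · have := hDZ2 hx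
      rw [mem_cj] at this ⊢
      have e : ((h (n + 1))⁻¹ * h (n + 1 + 1))⁻¹ * ((h (n + 1))⁻¹ * x * h (n + 1)) *
          ((h (n + 1))⁻¹ * h (n + 1 + 1)) = (h (n + 2))⁻¹ * x * h (n + 2) := by
        have : n + 1 + 1 = n + 2 := rfl
        rw [this]
        group
      rwa [e]
  by_cases hcase : Cm (cj (h 1) (V (τ 1))) (cj (h (n + 1)) (V (τ n)))
  · -- `L_{τ (n+1)}` normalises `V_{τ (n+1)} V_{τ n}`
    have hw0 : (h 0)⁻¹ * h n ∈ Wd L (m + 1) := by
      have := hw 0 n (by omega)
      rwa [zero_add] at this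
    have hnc0 := T.nc 0 (by omega)
    rw [zero_add] at hnc0
    have hSi : ∀ s ∈ S, cj s (V (τ n) ⊔ V (τ (n + 1))) = V (τ n) ⊔ V (τ (n + 1)) :=
      (loc (τ n)).SV₁ (loc (τ (n + 1)))
    have hinv : ∀ g ∈ L (τ (n + 1)), cj g (V (τ n) ⊔ V (τ (n + 1))) = V (τ n) ⊔ V (τ (n + 1)) := by
      apply ext_words loc hc hw0 hnc0 s1 mv1 le_sup_right hSi
      rw [cj_sup, (loc (τ (n + 1))).Vn _ s1]
      apply sup_le
      · apply le_of_cm loc hc (x := h 0) (u := h 1) (k := τ 1) (T.step 0 (by omega)) _ s1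
        · have e : h n * ((h n)⁻¹ * h (n + 1)) = h (n + 1) := by group
          rw [e]
          exact hcase
        · have := hw 1 m (by omega)
          have e : 1 + m = n := by omega
          rwa [e] at this
      · have := inS loc hc hw0 (τ (n + 1))
        rw [← cj_mul, le_cj_iff, inv_inv]
        exact this
    -- contradiction
    have hncn := T.nc n (by omega)
    rw [nc_cj loc] at hncn
    apply (loc (τ n)).notInv (loc (τ (n + 1))) (V' := cj ((h n)⁻¹ * h (n + n)) (V (τ (n + n + 1)))) _ s1 _ hncn hinv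
    · have h1 : (h (n + 1))⁻¹ * h (n + n) ∈ Wd L m := by
        have := hw (n + 1) m (by omega)
        have e : n + 1 + m = n + n := by omega
        rwa [e] at this
      have h2 := hc.cm h1 (τ (n + 1)) (τ (n + n + 1))
      rw [cjV_eq loc s1, nc_cj loc] at h2
      exact h2
    · have h1 : (h (n + 1))⁻¹ * h (n + n) ∈ Wd L m := by
        have := hw (n + 1) m (by omega)
        have e : n + 1 + m = n + n := by omega
        rwa [e] at this
      have h2 := hc.cm h1 (τ n) (τ (n + n + 1))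
      rw [nc_cj loc] at h2
      rw [nc_cj loc]
      have e : ((h n)⁻¹ * h (n + 1))⁻¹ * ((h n)⁻¹ * h (n + n)) = (h (n + 1))⁻¹ * h (n + n) := by group
      rwa [e]
  · -- the R's agree
    have h1 := crit_R' loc hc (x := h 1) (y := h (n + 1)) (i := τ 1) (j := τ n) (by
      have := hw 1 n (by omega)
      have e : 1 + n = n + 1 := by omega
      rwa [e] at this) hcase
    have h2 := hcr 1 (by omega)
    have e : 1 + n = n + 1 := by omega
    rw [e, ← h1] at h2
    -- h2 : cj (h (n+1)) ⁅V (τ (n+2)), S⁆ = cj (h (n+1)) ⁅V (τ n), S⁆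
    rw [← hD1] at h2
    rw [← h2] at hDC
    exact (loc (τ (n + 2))).R_not_le_C (cj_le_cj.mp hDC)

/-- **No critical pair at distance at least two.** -/
theorem commN_succ {m : ℕ} (hm : 1 ≤ m) (hc : CommN L V m) : CommN L V (m + 1) := by
  intro w hw i j
  by_contra hnc
  obtain ⟨k, rfl⟩ : ∃ k, m = k + 1 := ⟨m - 1, by omega⟩
  obtain ⟨h, τ, T⟩ := exists_track loc hc (fun w hw i j hnc => dead_words loc hc hw hnc) hw hnc (k + 1 + 3)
  exact live_false loc hm hc T

theorem commN_all (hc : CommN L V 1) : ∀ n, CommN L V n := by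
  have : ∀ n, CommN L V (n + 1) := by
    intro n
    induction n with
    | zero => exact hc
    | succ n ih => exact commN_succ loc (by omega) ih
  intro n
  exact (this n).le (Nat.le_succ n)

end fam

end Cfsg.Agent.H260.GN
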