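import Cfsg.Agent.H260.GN7

/-!
# Glauberman-Niles, part 8: paths of length three at distance one
-/

set_option autoImplicit false
set_option linter.unusedSectionVars false
set_option linter.unusedVariables false
set_option linter.style.haveILetI false

namespace Cfsg.Agent.H260.GN

open Subgroup Push
open scoped commutatorElement

variable {G : Type*} [Group G]

/-- a vertex, seen from an edge `S`. -/
structure Vx (p : ℕ) (S : Subgroup G) where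
  q : ℕ
  L : Subgroup G
  Q : Subgroup G
  V : Subgroup G
  C : Subgroup G
  M : Subgroup G
  loc : Loc p q S L Q V C M

/-- a path `a - b - c - d` with `[V_a,V_c] ≠ 1 ≠ [V_b,V_d]`, seen from the edge `S = {b,c}`. -/
structure P4 {p : ℕ} {Sa S Sd : Subgroup G} (a : Vx p Sa) (b c : Vx p S) (d : Vx p Sd) : Prop where
  QbSa : b.Q ≤ Sa
  QcSd : c.Q ≤ Sd
  VaS : a.V ≤ S
  VdS : d.V ≤ S
  cab : Cm a.V b.V
  cbc : Cm b.V c.V
  ccd : Cm c.V d.V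
  nac : ¬ Cm a.V c.V
  nbd : ¬ Cm b.V d.V

namespace P4

variable {p : ℕ} [hp : Fact p.Prime] {Sa S Sd : Subgroup G} {a : Vx p Sa} {b c : Vx p S} {d : Vx p Sd}

theorem symm (h : P4 a b c d) : P4 d c b a :=
  ⟨h.QcSd, h.QbSa, h.VdS, h.VaS, h.ccd.symm, h.cbc.symm, h.cab.symm, fun h' => h.nbd h'.symm,
    fun h' => h.nac h'.symm⟩

variable (h : P4 a b c d)
include h

theorem VcQb : c.V ≤ b.Q := b.loc.le_Q c.loc.VS h.cbc

theorem VbQc : b.V ≤ c.Q := c.loc.le_Q b.loc.VS h.cbc.symm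

theorem VaQb : a.V ≤ b.Q := b.loc.le_Q h.VaS h.cab.symm

theorem VdQc : d.V ≤ c.Q := c.loc.le_Q h.VdS h.ccd

theorem critac : a.q = c.q ∧ c.V ⊔ a.Q = Sa ∧ a.V ⊔ c.Q = S ∧ c.V ⊓ a.Q = cen S ∧
    a.V ⊓ c.Q = cen Sa ∧ ⁅a.V, c.V⁆ = ⁅a.V, Sa⁆ ∧ ⁅c.V, S⁆ = ⁅a.V, Sa⁆ :=
  a.loc.crit c.loc h.VaS (h.VcQb.trans h.QbSa) h.nac

theorem critbd : b.q = d.q ∧ d.V ⊔ b.Q = S ∧ b.V ⊔ d.Q = Sd ∧ d.V ⊓ b.Q = cen Sd ∧
    b.V ⊓ d.Q = cen S ∧ ⁅b.V, d.V⁆ = ⁅b.V, S⁆ ∧ ⁅d.V, Sd⁆ = ⁅b.V, S⁆ :=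
  b.loc.crit d.loc (h.VbQc.trans h.QcSd) h.VdS h.nbd

/-- `x ∈ Q_b ∩ Q_c` is `v_b v_c k`, `k` in all four `Q`'s. -/
theorem decbc {x : G} (hb : x ∈ b.Q) (hc : x ∈ c.Q) :
    ∃ v ∈ b.V, ∃ w ∈ c.V, ∃ k, k ∈ a.Q ∧ k ∈ b.Q ∧ k ∈ c.Q ∧ k ∈ d.Q ∧ v * (w * k) = x := by
  have h1 := h.QcSd hc
  rw [← h.critbd.2.2.1] at h1
  obtain ⟨v, hv, x', hx', rfl⟩ := mem_sup_of_norm
    (fun k hk => d.loc.Qn k (d.loc.SL (h.QcSd (h.VbQc hk)))) h1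
  have hx'b : x' ∈ b.Q := by
    have e : x' = v⁻¹ * (v * x') := by group
    rw [e]
    exact mul_mem (inv_mem (b.loc.VQ hv)) hb
  have hx'c : x' ∈ c.Q := by
    have e : x' = v⁻¹ * (v * x') := by group
    rw [e]
    exact mul_mem (inv_mem (h.VbQc hv)) hc
  have h2 := h.QbSa hx'b
  rw [← h.critac.2.1] at h2
  obtain ⟨w, hw, k, hk, rfl⟩ := mem_sup_of_norm
    (fun k hk => a.loc.Qn k (a.loc.SL (h.QbSa (h.VcQb hk)))) h2
  have ek : k = w⁻¹ * (w * k) := by group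
  have hwd : w ∈ d.Q := d.loc.le_Q (c.loc.VQ.trans h.QcSd) h.ccd.symm hw
  refine ⟨v, hv, w, hw, k, hk, ?_, ?_, ?_, rfl⟩
  · rw [ek]
    exact mul_mem (inv_mem (h.VcQb hw)) hx'b
  · rw [ek]
    exact mul_mem (inv_mem (c.loc.VQ hw)) hx'c
  · rw [ek]
    exact mul_mem (inv_mem hwd) hx'

/-- `x ∈ Q_b` is `v_a v_b v_c k`. -/
theorem decb {x : G} (hb : x ∈ b.Q) :
    ∃ u ∈ a.V, ∃ v ∈ b.V, ∃ w ∈ c.V, ∃ k, k ∈ a.Q ∧ k ∈ b.Q ∧ k ∈ c.Q ∧ k ∈ d.Q ∧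
      u * (v * (w * k)) = x := by
  have h1 := b.loc.QS hb
  rw [← h.critac.2.2.1] at h1
  obtain ⟨u, hu, x', hx', rfl⟩ := mem_sup_of_norm
    (fun k hk => c.loc.Qn k (c.loc.SL (h.VaS hk))) h1
  have hx'b : x' ∈ b.Q := by
    have e : x' = u⁻¹ * (u * x') := by group
    rw [e]
    exact mul_mem (inv_mem (h.VaQb hu)) hb
  obtain ⟨v, hv, w, hw, k, h1, h2, h3, h4, h5⟩ := h.decbc hx'b hx'
  exact ⟨u, hu, v, hv, w, hw, k, h1, h2, h3, h4, by rw [h5]⟩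

/-- `x ∈ S` is `v_d v_a v_b v_c k`. -/
theorem decS {x : G} (hx : x ∈ S) :
    ∃ r ∈ d.V, ∃ u ∈ a.V, ∃ v ∈ b.V, ∃ w ∈ c.V, ∃ k, k ∈ a.Q ∧ k ∈ b.Q ∧ k ∈ c.Q ∧ k ∈ d.Q ∧
      r * (u * (v * (w * k))) = x := by
  rw [← h.critbd.2.1] at hx
  obtain ⟨r, hr, x', hx', rfl⟩ := mem_sup_of_norm
    (fun k hk => b.loc.Qn k (b.loc.SL (h.VdS hk))) hx
  obtain ⟨u, hu, v, hv, w, hw, k, h1, h2, h3, h4, h5⟩ := h.decb hx'
  exact ⟨r, hr, u, hu, v, hv, w, hw, k, h1, h2, h3, h4, by rw [h5]⟩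

/-- the intersection of `⟨V_a,V_b,V_c,V_d⟩` with the `Q`'s is central. -/
theorem cenD {k : G} (h1 : k ∈ a.Q) (h2 : k ∈ b.Q) (h3 : k ∈ c.Q) (h4 : k ∈ d.Q)
    (hk : k ∈ a.V ⊔ b.V ⊔ (c.V ⊔ d.V)) : k ∈ cen S := by
  have hD : Cm (a.V ⊔ b.V ⊔ (c.V ⊔ d.V)) (a.Q ⊓ b.Q ⊓ (c.Q ⊓ d.Q)) := by
    apply Cm.sup_left
    · apply Cm.sup_left
      · exact a.loc.VQc.mono le_rfl (inf_le_left.trans inf_le_left)
      · exact b.loc.VQc.mono le_rfl (inf_le_left.trans inf_le_right)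
    · apply Cm.sup_left
      · exact c.loc.VQc.mono le_rfl (inf_le_right.trans inf_le_left)
      · exact d.loc.VQc.mono le_rfl (inf_le_right.trans inf_le_right)
  refine ⟨b.loc.QS h2, mem_centralizer_iff.mpr ?_⟩
  intro x hx
  obtain ⟨r, hr, u, hu, v, hv, w, hw, m, m1, m2, m3, m4, rfl⟩ := h.decS hx
  have g1 : r * k = k * r := d.loc.VQc r hr k h4
  have g2 : u * k = k * u := a.loc.VQc u hu k h1
  have g3 : v * k = k * v := b.loc.VQc v hv k h2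
  have g4 : w * k = k * w := c.loc.VQc w hw k h3
  have g5 : m * k = k * m := (hD k hk m ⟨⟨m1, m2⟩, ⟨m3, m4⟩⟩).symm
  exact (((show Commute r k from g1).mul_left ((show Commute u k from g2).mul_left
    ((show Commute v k from g3).mul_left ((show Commute w k from g4).mul_left
      (show Commute m k from g5))))))

/-- `[V_a, V_d] ≤ V_b V_c`. -/
theorem comm_mem {t y : G} (ht : t ∈ a.V) (hy : y ∈ d.V) : ∃ v ∈ b.V, ∃ w ∈ c.V, ⁅t, y⁆ = v * w := by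
  have h1 : ⁅t, y⁆ ∈ b.Q := by
    rw [commutatorElement_def]
    have e : t * y * t⁻¹ * y⁻¹ = t * (y * t⁻¹ * y⁻¹) := by group
    rw [e]
    exact mul_mem (h.VaQb ht) (b.loc.cj_mem (b.loc.SL (h.VdS hy)) b.loc.Qn (inv_mem (h.VaQb ht)))
  have h2 : ⁅t, y⁆ ∈ c.Q := by
    rw [commutatorElement_def]
    exact mul_mem (c.loc.cj_mem (c.loc.SL (h.VaS ht)) c.loc.Qn (h.VdQc hy)) (inv_mem (h.VdQc hy))
  obtain ⟨v, hv, w, hw, k, m1, m2, m3, m4, hvw⟩ := h.decbc h1 h2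
  have hk : k ∈ cen S := by
    apply h.cenD m1 m2 m3 m4
    have e : k = w⁻¹ * (v⁻¹ * ⁅t, y⁆) := by rw [← hvw]; group
    rw [e]
    apply mul_mem (inv_mem (mem_sup_right (mem_sup_left hw)))
    apply mul_mem (inv_mem (mem_sup_left (mem_sup_right hv)))
    rw [commutatorElement_def]
    have ht' : t ∈ a.V ⊔ b.V ⊔ (c.V ⊔ d.V) := mem_sup_left (mem_sup_left ht)
    have hy' : y ∈ a.V ⊔ b.V ⊔ (c.V ⊔ d.V) := mem_sup_right (mem_sup_right hy)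
    exact mul_mem (mul_mem (mul_mem ht' hy') (inv_mem ht')) (inv_mem hy')
  exact ⟨v, hv, w * k, mul_mem hw (c.loc.ZV hk), hvw.symm⟩

/-- moving at `c`: `[V_a,V_d] ≰ V_c`. -/
theorem noc {g : G} (hg : g ∈ c.L) (hgM : g ∉ c.M) (hSd : Sd = cj g S)
    (hcm : Cm b.V (cj g⁻¹ d.V)) : ¬ ∀ t ∈ a.V, ∀ y ∈ d.V, ⁅t, y⁆ ∈ c.V := by
  intro hall
  haveI := d.loc.finS
  have hVc : c.V ≤ Sd := c.loc.VQ.trans h.QcSd
  haveI : Finite (c.V ⊔ d.V : Subgroup G) := fin_le (sup_le hVc d.loc.VS)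
  have hSdL : Sd ≤ c.L := by
    rw [hSd]
    have := cj_mono (g := g) c.loc.SL
    rwa [cj_of_mem hg] at this
  have k1 : ∀ s ∈ Sd, cj s (c.V ⊔ d.V) = c.V ⊔ d.V := by
    intro s hs
    exact cj_sup_eq (c.loc.Vn s (hSdL hs)) (d.loc.Vn s (d.loc.SL hs))
  have k2 : ∀ t ∈ a.V, cj t (c.V ⊔ d.V) = c.V ⊔ d.V := by
    intro t ht
    apply cj_eq_of_le
    rw [cj_sup, c.loc.Vn t (c.loc.SL (h.VaS ht))]
    apply sup_le le_sup_left
    intro y hy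
    rw [mem_cj] at hy
    have e : y = ⁅t, t⁻¹ * y * t⁆ * (t⁻¹ * y * t) := by rw [commutatorElement_def]; group
    rw [e]
    exact mul_mem (mem_sup_left (hall t ht _ hy)) (mem_sup_right hy)
  have k3 : ∀ l ∈ c.L, cj l (c.V ⊔ d.V) = c.V ⊔ d.V := by
    rw [← c.loc.gen g hg hgM, ← hSd]
    apply norm_sup _ k1
    have k5 := norm_sup k2 (fun k hk => k1 k (h.QcSd hk))
    exact fun s hs => k5 s (h.critac.2.2.1.ge hs)
  have k4 := k3 g⁻¹ (inv_mem hg)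
  rw [cj_sup, c.loc.Vn _ (inv_mem hg)] at k4
  apply h.nbd
  have : Cm b.V (c.V ⊔ cj g⁻¹ d.V) := h.cbc.sup_right hcm
  rw [k4] at this
  exact this.mono le_rfl le_sup_right

/-- `cen S_d ≤ V_c` in the moving situation. -/
theorem cenSd {g : G} (hg : g ∈ c.L) (hSd : Sd = cj g S) : cen Sd ≤ c.V := by
  rw [hSd, ← cj_cen]
  exact c.loc.cjZV hg

/-- **`p = 2`**: contradiction. -/
theorem false_two (h2 : p = 2) {g : G} (hg : g ∈ c.L) (hgM : g ∉ c.M) (hSd : Sd = cj g S)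
    (hcm : Cm b.V (cj g⁻¹ d.V)) : False := by
  apply h.noc hg hgM hSd hcm
  intro t ht y hy
  have htL := c.loc.SL (h.VaS ht)
  by_cases hyQ : y ∈ b.Q
  · have h3 : y ∈ cen Sd := by
      rw [← h.critbd.2.2.2.1]
      exact ⟨hy, hyQ⟩
    have h4 := h.cenSd hg hSd h3
    rw [commutatorElement_def]
    exact mul_mem (c.loc.cjV_mem htL h4) (inv_mem h4)
  obtain ⟨v, hv, w, hw, hvw⟩ := h.comm_mem ht hy
  have hy2 : y ^ 2 = 1 := by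
    have := d.loc.elV y hy
    rwa [h2] at this
  have hyy : y⁻¹ = y := by
    rw [inv_eq_iff_mul_eq_one, ← pow_two]
    exact hy2
  have hw2 : w * w = 1 := by
    have := c.loc.elV w hw
    rwa [h2, pow_two] at this
  have hv2 : v * v = 1 := by
    have := b.loc.elV v hv
    rwa [h2, pow_two] at this
  have h3 : y * ⁅t, y⁆ * y⁻¹ = ⁅t, y⁆⁻¹ := by
    rw [commutatorElement_def]
    have e3 : y * (t * y * t⁻¹ * y⁻¹) * y⁻¹ = y * t * y * t⁻¹ * (y ^ 2)⁻¹ := by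
      rw [pow_two]; group
    have e4 : (t * y * t⁻¹ * y⁻¹)⁻¹ = y * t * y⁻¹ * t⁻¹ := by group
    rw [e3, e4, hy2, hyy]; group
  have hyw : y * w = w * y := (h.ccd w hw y hy).symm
  have hvw' : v * w = w * v := h.cbc v hv w hw
  rw [hvw] at h3
  have h4 : y * v * y⁻¹ = v := by
    have e1 : y * (v * w) * y⁻¹ = (y * v * y⁻¹) * w := by
      have : w * y⁻¹ = y⁻¹ * w := by
        rw [eq_inv_mul_iff_mul_eq, ← mul_assoc, hyw]; group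
      calc y * (v * w) * y⁻¹ = y * v * (w * y⁻¹) := by group
        _ = _ := by rw [this]; group
    rw [e1] at h3
    have e2 : y * v * y⁻¹ = (v * w)⁻¹ * w⁻¹ := by rw [← h3]; group
    rw [e2]
    have hwi : w⁻¹ = w := by rw [inv_eq_iff_mul_eq_one]; exact hw2
    have hvi : v⁻¹ = v := by rw [inv_eq_iff_mul_eq_one]; exact hv2
    rw [mul_inv_rev, hwi, hvi, mul_assoc, hvw', ← mul_assoc, hw2, one_mul]
  have h5 : v ∈ cen S := by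
    apply b.loc.fix (h.VdS hy) hyQ hv
    calc y * v = (y * v * y⁻¹) * y := by group
      _ = _ := by rw [h4]
  rw [hvw]
  exact mul_mem (c.loc.ZV h5) hw

end P4

end Cfsg.Agent.H260.GN
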